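import Mathlib

/-!
Dihedral B-groups, part 1: the convolution ring of stabiliser-invariant functions on a regular
dihedral subgroup of a primitive group.
-/

set_option autoImplicit false
set_option linter.unusedSectionVars false

namespace Cfsg.Agent.PermGroups.DihedralB

open DihedralGroup MulAction
open scoped Pointwise

variable {m : ℕ} [NeZero m]

/-- Convolution. -/
def conv {k : Type*} [CommRing k] (f g : DihedralGroup m → k) (d : DihedralGroup m) : k :=
  ∑ e, f e * g (e⁻¹ * d)

/-- A function on `ZMod m` as an element of the group ring. -/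
noncomputable def pol {k : Type*} [CommRing k] (w : ZMod m → k) : AddMonoidAlgebra k (ZMod m) :=
  AddMonoidAlgebra.ofCoeff (Finsupp.equivFunOnFinite.symm w)

@[simp] theorem coeff_pol {k : Type*} [CommRing k] (w : ZMod m → k) (i : ZMod m) :
    (pol w).coeff i = w i := rfl

theorem pol_coeff {k : Type*} [CommRing k] (x : AddMonoidAlgebra k (ZMod m)) :
    pol (fun i => x.coeff i) = x := AddMonoidAlgebra.coeff_injective (Finsupp.ext fun _ => rfl)

theorem coeff_mul_eq {k : Type*} [CommRing k] (x y : AddMonoidAlgebra k (ZMod m)) (i : ZMod m) :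
    (x * y).coeff i = ∑ j, x.coeff j * y.coeff (i - j) := by
  classical
  rw [AddMonoidAlgebra.coeff_mul, Finsupp.sum_fintype _ _ (by intro; simp)]
  refine Finset.sum_congr rfl fun j _ => ?_
  rw [Finsupp.sum_fintype _ _ (by intro; simp)]
  rw [Finset.sum_eq_single (i - j)]
  · simp
  · intro b _ hb
    exact if_neg fun h => hb (by rw [← h]; ring)
  · simp

/-- The matrix representation of the group ring. -/
noncomputable def J {k : Type*} [CommRing k] (f : DihedralGroup m → k) :
    Matrix (Fin 2) (Fin 2) (AddMonoidAlgebra k (ZMod m)) :=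
  !![pol (fun i => f (r i)), pol (fun i => f (sr (-i)));
     pol (fun i => f (sr i)), pol (fun i => f (r (-i)))]

/-- The coefficient function of a matrix. -/
noncomputable def coefJ {k : Type*} [CommRing k]
    (M : Matrix (Fin 2) (Fin 2) (AddMonoidAlgebra k (ZMod m))) : DihedralGroup m → k
  | r i => (M 0 0).coeff i
  | sr i => (M 1 0).coeff i

theorem coefJ_J {k : Type*} [CommRing k] (f : DihedralGroup m → k) : coefJ (J f) = f := by
  funext d; cases d <;> simp [coefJ, J]

theorem J_injective {k : Type*} [CommRing k] :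
    Function.Injective (J (m := m) (k := k)) := fun f g h => by
  rw [← coefJ_J f, h, coefJ_J]

theorem sum_split {M : Type*} [AddCommMonoid M] (F : DihedralGroup m → M) :
    ∑ e, F e = ∑ j, F (r j) + ∑ j, F (sr j) := by
  rw [← Equiv.sum_comp DihedralGroup.equivSum.symm F, Fintype.sum_sum_type]
  rfl

theorem conv_r {k : Type*} [CommRing k] (f g : DihedralGroup m → k) (i : ZMod m) :
    conv f g (r i) = ∑ j, f (r j) * g (r (i - j)) + ∑ j, f (sr j) * g (sr (j + i)) := by
  rw [conv, sum_split]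
  simp only [inv_r, inv_sr, r_mul_r, sr_mul_r]
  congr 1
  exact Finset.sum_congr rfl fun j _ => by rw [neg_add_eq_sub]

theorem conv_sr {k : Type*} [CommRing k] (f g : DihedralGroup m → k) (i : ZMod m) :
    conv f g (sr i) = ∑ j, f (r j) * g (sr (i + j)) + ∑ j, f (sr j) * g (r (i - j)) := by
  rw [conv, sum_split]
  simp only [inv_r, inv_sr, r_mul_sr, sr_mul_sr]
  congr 1
  exact Finset.sum_congr rfl fun j _ => by rw [sub_neg_eq_add]

theorem J_conv {k : Type*} [CommRing k] (f g : DihedralGroup m → k) : J (conv f g) = J f * J g := by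
  ext1 a b
  rw [Matrix.mul_apply, Fin.sum_univ_two]
  fin_cases a <;> fin_cases b <;>
    simp only [J, Fin.zero_eta, Fin.mk_one, Matrix.of_apply, Matrix.cons_val', Matrix.cons_val_zero,
      Matrix.cons_val_one, Matrix.cons_val_fin_one, Fin.isValue] <;>
    refine AddMonoidAlgebra.coeff_injective (Finsupp.ext fun i => ?_) <;>
    rw [coeff_pol, AddMonoidAlgebra.coeff_add, Finsupp.add_apply, coeff_mul_eq, coeff_mul_eq] <;>
    simp only [coeff_pol]
  · rw [conv_r]
    congr 1
    rw [← Equiv.sum_comp (Equiv.neg (ZMod m)) (fun j => f (sr j) * g (sr (j + i)))]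
    exact Finset.sum_congr rfl fun j _ => by simp [sub_eq_neg_add]
  · rw [conv_sr]
    congr 1
    · exact Finset.sum_congr rfl fun j _ => by congr 2; ring_nf
    · rw [← Equiv.sum_comp (Equiv.neg (ZMod m)) (fun j => f (sr j) * g (r (-i - j)))]
      exact Finset.sum_congr rfl fun j _ => by simp [sub_eq_neg_add, add_comm]
  · rw [conv_sr, add_comm]
    congr 1
    rw [← Equiv.sum_comp (Equiv.neg (ZMod m)) (fun j => f (r j) * g (sr (i + j)))]
    exact Finset.sum_congr rfl fun j _ => by simp [sub_eq_add_neg]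
  · rw [conv_r, add_comm]
    congr 1
    · exact Finset.sum_congr rfl fun j _ => by congr 2; ring_nf
    · rw [← Equiv.sum_comp (Equiv.neg (ZMod m)) (fun j => f (r j) * g (r (-i - j)))]
      exact Finset.sum_congr rfl fun j _ => by simp [sub_eq_neg_add, add_comm]

/-- The indicator of the identity. -/
def delta {k : Type*} [CommRing k] (d : DihedralGroup m) : k := if d = 1 then 1 else 0

theorem delta_r {k : Type*} [CommRing k] (i : ZMod m) :
    delta (k := k) (r i : DihedralGroup m) = if i = 0 then 1 else 0 := by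
  unfold delta
  exact if_congr ⟨fun h => by injection h, fun h => by rw [h, r_zero]⟩ rfl rfl

theorem delta_sr {k : Type*} [CommRing k] (i : ZMod m) :
    delta (k := k) (sr i : DihedralGroup m) = 0 := by
  unfold delta
  exact if_neg fun h => by rw [← r_zero] at h; injection h

theorem J_delta {k : Type*} [CommRing k] : J (delta (m := m) (k := k)) = 1 := by
  classical
  ext1 a b
  fin_cases a <;> fin_cases b <;>
    simp only [J, Fin.zero_eta, Fin.mk_one, Matrix.of_apply, Matrix.cons_val', Matrix.cons_val_zero,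
      Matrix.cons_val_one, Matrix.cons_val_fin_one, Fin.isValue, Matrix.one_apply_eq,
      Matrix.one_apply_ne, ne_eq, zero_ne_one, one_ne_zero, not_false_eq_true] <;>
    refine AddMonoidAlgebra.coeff_injective (Finsupp.ext fun i => ?_) <;>
    simp [delta_r, delta_sr, AddMonoidAlgebra.one_def, Finsupp.single_apply, eq_comm]

theorem conv_assoc {k : Type*} [CommRing k] (f g h : DihedralGroup m → k) :
    conv (conv f g) h = conv f (conv g h) :=
  J_injective (by rw [J_conv, J_conv, J_conv, J_conv, mul_assoc])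

theorem sum_conv {k : Type*} [CommRing k] (f g : DihedralGroup m → k) :
    ∑ d, conv f g d = (∑ d, f d) * ∑ d, g d := by
  simp only [conv]
  rw [Finset.sum_comm, Finset.sum_mul]
  refine Finset.sum_congr rfl fun e _ => ?_
  rw [← Finset.mul_sum, Equiv.sum_comp (Equiv.mulLeft e⁻¹) g |>.symm]
  rfl

theorem map_conv {k k' : Type*} [CommRing k] [CommRing k'] (φ : k →+* k')
    (f g : DihedralGroup m → k) (d : DihedralGroup m) :
    φ (conv f g d) = conv (φ ∘ f) (φ ∘ g) d := by
  simp [conv, map_sum, map_mul]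

/-- A transitive regular dihedral subgroup, with a base point. -/
structure Setup (m : ℕ) (G Ω : Type*) [Group G] [MulAction G Ω] where
  /-- the embedding -/
  ρ : DihedralGroup m →* G
  /-- the base point -/
  a : Ω
  bij : Function.Bijective fun d => ρ d • a

variable {G Ω : Type*} [Group G] [MulAction G Ω] (s : Setup m G Ω)

/-- The points, indexed by the dihedral group. -/
noncomputable def Setup.pt : DihedralGroup m ≃ Ω := Equiv.ofBijective _ s.bij

theorem Setup.pt_apply (d : DihedralGroup m) : s.pt d = s.ρ d • s.a := rfl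

theorem Setup.pt_one : s.pt 1 = s.a := by rw [s.pt_apply, map_one, one_smul]

theorem Setup.pt_mul (c d : DihedralGroup m) : s.pt (c * d) = s.ρ c • s.pt d := by
  rw [s.pt_apply, s.pt_apply, map_mul, mul_smul]

/-- The transported action. -/
noncomputable def Setup.act (g : G) (d : DihedralGroup m) : DihedralGroup m :=
  s.pt.symm (g • s.pt d)

theorem Setup.pt_act (g : G) (d : DihedralGroup m) : s.pt (s.act g d) = g • s.pt d :=
  s.pt.apply_symm_apply _

theorem Setup.act_act (g h : G) (d : DihedralGroup m) : s.act g (s.act h d) = s.act (g * h) d := by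
  simp [Setup.act, mul_smul]

theorem Setup.one_act (d : DihedralGroup m) : s.act 1 d = d := by
  simp [Setup.act]

theorem Setup.act_one {h : G} (hh : h ∈ stabilizer G s.a) : s.act h 1 = 1 := by
  apply s.pt.injective
  rw [s.pt_act, s.pt_one, mem_stabilizer_iff.mp hh]

theorem Setup.act_eq_one_iff {h : G} (hh : h ∈ stabilizer G s.a) (d : DihedralGroup m) :
    s.act h d = 1 ↔ d = 1 := by
  constructor
  · intro e
    apply s.pt.injective
    apply (MulAction.injective h : Function.Injective fun x : Ω => h • x)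
    show h • s.pt d = h • s.pt 1
    rw [← s.pt_act, e, s.pt_one, mem_stabilizer_iff.mp hh]
  · rintro rfl
    exact s.act_one hh

theorem Setup.act_mul (g : G) (c d : DihedralGroup m) :
    ∃ h ∈ stabilizer G s.a, s.act g (c * d) = s.act g c * s.act h d := by
  refine ⟨(s.ρ (s.act g c))⁻¹ * g * s.ρ c, ?_, ?_⟩
  · rw [mem_stabilizer_iff, mul_smul, mul_smul, ← s.pt_apply, ← s.pt_act, inv_smul_eq_iff,
      s.pt_apply]
  · apply s.pt.injective
    rw [s.pt_act, s.pt_mul, s.pt_mul, s.pt_act, mul_smul, mul_smul, smul_inv_smul]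

/-- Invariance under the stabiliser. -/
def Setup.Inv {k : Type*} (f : DihedralGroup m → k) : Prop :=
  ∀ h ∈ stabilizer G s.a, ∀ d, f (s.act h d) = f d

theorem Setup.inv_conv {k : Type*} [CommRing k] {f g : DihedralGroup m → k} (hf : s.Inv f)
    (hg : s.Inv g) : s.Inv (conv f g) := by
  intro h hh d
  let σ : DihedralGroup m ≃ DihedralGroup m :=
    { toFun := s.act h
      invFun := s.act h⁻¹
      left_inv := fun x => by rw [s.act_act, inv_mul_cancel, s.one_act]
      right_inv := fun x => by rw [s.act_act, mul_inv_cancel, s.one_act] }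
  rw [conv, ← Equiv.sum_comp σ]
  refine Finset.sum_congr rfl fun e _ => ?_
  obtain ⟨h', hh', he⟩ := s.act_mul h e (e⁻¹ * d)
  rw [mul_inv_cancel_left] at he
  show f (s.act h e) * g ((s.act h e)⁻¹ * s.act h d) = _
  rw [hf h hh, he, inv_mul_cancel_left, hg h' hh']

theorem Setup.inv_delta {k : Type*} [CommRing k] : s.Inv (delta (m := m) (k := k)) := by
  intro h hh d
  simp [delta, s.act_eq_one_iff hh]

/-- An invariant submonoid of a primitive group is trivial or everything. -/
theorem Setup.eq_univ_or (hprim : IsPreprimitive G Ω) (S : Set (DihedralGroup m)) (h1 : 1 ∈ S)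
    (hinv : ∀ h ∈ stabilizer G s.a, ∀ d ∈ S, s.act h d ∈ S)
    (hmul : ∀ c ∈ S, ∀ d ∈ S, c * d ∈ S) : (∀ d ∈ S, d = 1) ∨ ∀ d, d ∈ S := by
  let H₀ : Submonoid (DihedralGroup m) :=
    { carrier := S, one_mem' := h1, mul_mem' := fun {c d} hc hd => hmul c hc d hd }
  have hinvmem : ∀ c ∈ S, c⁻¹ ∈ S := by
    intro c hc
    have h2 : 0 < orderOf c := orderOf_pos c
    have h3 : c⁻¹ = c ^ (orderOf c - 1) := by
      rw [inv_eq_iff_mul_eq_one, ← pow_succ', Nat.sub_add_cancel h2, pow_orderOf_eq_one]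
    rw [h3]
    exact H₀.pow_mem hc _
  set B : Set Ω := s.pt '' S with hBdef
  have key : ∀ g : G, g • B = s.pt '' {x | ∃ d ∈ S, s.act g 1 * d = x} := by
    intro g
    ext y
    constructor
    · rintro ⟨_, ⟨d, hd, rfl⟩, rfl⟩
      obtain ⟨h, hh, he⟩ := s.act_mul g 1 d
      rw [one_mul] at he
      exact ⟨s.act g d, ⟨s.act h d, hinv h hh d hd, he.symm⟩, s.pt_act g d⟩
    · rintro ⟨_, ⟨d, hd, rfl⟩, rfl⟩
      obtain ⟨h, hh, he⟩ := s.act_mul g⁻¹ (s.act g 1) d
      refine ⟨s.pt (s.act g⁻¹ (s.act g 1 * d)), ⟨_, ?_, rfl⟩, ?_⟩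
      · rw [he, s.act_act, inv_mul_cancel, s.one_act, one_mul]
        exact hinv h hh d hd
      · show g • _ = _
        rw [s.pt_act, smul_inv_smul]
  have hB : IsBlock G B := by
    intro g g' hne
    rw [Set.disjoint_left]
    intro y hy hy'
    apply hne
    rw [key] at hy hy' ⊢
    rw [key]
    obtain ⟨_, ⟨d, hd, rfl⟩, rfl⟩ := hy
    obtain ⟨_, ⟨d', hd', rfl⟩, hxy⟩ := hy'
    have e := s.pt.injective hxy
    congr 1
    ext x
    constructor
    · rintro ⟨c, hc, rfl⟩
      refine ⟨d' * d⁻¹ * c, hmul _ (hmul _ hd' _ (hinvmem d hd)) _ hc, ?_⟩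
      rw [← mul_assoc, ← mul_assoc, e, mul_inv_cancel_right]
    · rintro ⟨c, hc, rfl⟩
      refine ⟨d * d'⁻¹ * c, hmul _ (hmul _ hd _ (hinvmem d' hd')) _ hc, ?_⟩
      rw [← mul_assoc, ← mul_assoc, ← e, mul_inv_cancel_right]
  rcases hprim.isTrivialBlock_of_isBlock hB with h | h
  · refine Or.inl fun d hd => s.pt.injective ?_
    exact h ⟨d, hd, rfl⟩ ⟨1, h1, rfl⟩
  · refine Or.inr fun d => ?_
    have : s.pt d ∈ B := by rw [h]; exact Set.mem_univ _
    obtain ⟨c, hc, e⟩ := this
    rwa [← s.pt.injective e]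

/-- Two elements in one orbit of the stabiliser. -/
def Setup.Orb (d e : DihedralGroup m) : Prop := ∃ h ∈ stabilizer G s.a, s.act h d = e

theorem Setup.orb_refl (d : DihedralGroup m) : s.Orb d d := ⟨1, one_mem _, s.one_act d⟩

theorem Setup.orb_symm {d e : DihedralGroup m} (h : s.Orb d e) : s.Orb e d := by
  obtain ⟨h, hh, rfl⟩ := h
  exact ⟨h⁻¹, inv_mem hh, by rw [s.act_act, inv_mul_cancel, s.one_act]⟩

theorem Setup.orb_trans {d e f : DihedralGroup m} (h : s.Orb d e) (h' : s.Orb e f) : s.Orb d f := by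
  obtain ⟨h, hh, rfl⟩ := h
  obtain ⟨h', hh', rfl⟩ := h'
  exact ⟨h' * h, mul_mem hh' hh, (s.act_act _ _ _).symm⟩

theorem Setup.inv_iff {k : Type*} (f : DihedralGroup m → k) :
    s.Inv f ↔ ∀ d e, s.Orb d e → f e = f d :=
  ⟨fun hf d _ ⟨h, hh, he⟩ => he ▸ hf h hh d, fun hf h hh d => hf d _ ⟨h, hh, rfl⟩⟩

variable (hprim : IsPreprimitive G Ω) (hm : 2 ≤ m)
include hprim hm

theorem Setup.exists_sr {d : DihedralGroup m} (hd : d ≠ 1) : ∃ i, s.Orb d (sr i) := by
  by_contra hcon
  push Not at hcon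
  let S : Set (DihedralGroup m) := {c | ∀ i, ¬ s.Orb c (sr i)}
  refine Or.elim (s.eq_univ_or hprim S ?_ ?_ ?_) (fun h => hd (h d hcon))
    (fun h => h (sr 0) 0 (s.orb_refl _))
  · rintro i ⟨h, hh, he⟩
    rw [s.act_one hh] at he
    rw [← r_zero] at he; injection he
  · intro h hh c hc i hi
    exact hc i (s.orb_trans ⟨h, hh, rfl⟩ hi)
  · rintro c hc e he i ⟨h, hh, hi⟩
    obtain ⟨h', hh', hmul⟩ := s.act_mul h c e
    rw [hmul] at hi
    rcases h1 : s.act h c with j | j
    · rcases h2 : s.act h' e with l | l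
      · rw [h1, h2, r_mul_r] at hi; simp at hi
      · exact he l ⟨h', hh', h2⟩
    · exact hc j ⟨h, hh, h1⟩

theorem Setup.orb_inv (d : DihedralGroup m) : s.Orb d d⁻¹ := by
  rcases eq_or_ne d 1 with rfl | hd
  · rw [inv_one]; exact s.orb_refl 1
  obtain ⟨i, h, hh, hi⟩ := s.exists_sr hprim hm hd
  obtain ⟨h', hh', hmul⟩ := s.act_mul h d d⁻¹
  rw [mul_inv_cancel, s.act_one hh, hi] at hmul
  have e : s.act h' d⁻¹ = sr i := by
    have := (inv_eq_of_mul_eq_one_right hmul.symm)
    rw [← this, inv_sr]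
  exact s.orb_trans ⟨h, hh, hi⟩ (s.orb_symm ⟨h', hh', e⟩)

theorem Setup.exists_r (d : DihedralGroup m) : ∃ i, s.Orb d (r i) := by
  by_contra hcon
  push Not at hcon
  let S₀ : Set (DihedralGroup m) := {c | ∀ i, ¬ s.Orb c (r i)}
  have hd : d ∈ S₀ := hcon
  have hall : ∀ c ∈ S₀, ∀ e ∈ S₀, c * e = 1 := by
    intro c hc e he
    by_contra hne
    obtain ⟨i, h, hh, hi⟩ := s.exists_sr hprim hm hne
    obtain ⟨h', hh', hmul⟩ := s.act_mul h c e
    rw [hmul] at hi
    rcases h1 : s.act h c with j | j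
    · exact hc j ⟨h, hh, h1⟩
    · rcases h2 : s.act h' e with l | l
      · exact he l ⟨h', hh', h2⟩
      · rw [h1, h2, sr_mul_sr] at hi; simp at hi
  have hdd := hall d hd d hd
  have huniq : ∀ c ∈ S₀, c = d := fun c hc =>
    mul_right_cancel ((hall c hc d hd).trans hdd.symm)
  have hr : (r 1 : DihedralGroup m) ≠ 1 := by
    intro e
    have := congrArg orderOf e
    rw [orderOf_r_one, orderOf_one] at this
    omega
  refine Or.elim (s.eq_univ_or hprim {c | c = 1 ∨ c = d} (Or.inl rfl) ?_ ?_) (fun h => ?_) (fun h => ?_)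
  · rintro h hh c (rfl | rfl)
    · exact Or.inl (s.act_one hh)
    · exact Or.inr (huniq _ fun i hi => hd i (s.orb_trans ⟨h, hh, rfl⟩ hi))
  · rintro c (rfl | rfl) e (rfl | rfl) <;> simp [hdd]
  · exact hd 0 (by rw [h d (Or.inr rfl), r_zero]; exact s.orb_refl 1)
  · -- the group would have only two elements
    rcases h (r 1) with e | e
    · exact hr e
    · exact hd 1 (by rw [← e]; exact s.orb_refl _)

theorem Setup.inv_symm {k : Type*} {f : DihedralGroup m → k} (hf : s.Inv f)
    (d : DihedralGroup m) : f d⁻¹ = f d :=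
  (s.inv_iff f).mp hf _ _ (s.orb_inv hprim hm d)

theorem Setup.eq_zero_of_r {k : Type*} [Zero k] {f : DihedralGroup m → k} (hf : s.Inv f)
    (h : ∀ i, f (r i) = 0) : f = 0 := by
  funext d
  obtain ⟨i, hi⟩ := s.exists_r hprim hm d
  rw [← (s.inv_iff f).mp hf _ _ hi, h]
  rfl

theorem Setup.eq_of_r {k : Type*} [AddGroup k] {f g : DihedralGroup m → k} (hf : s.Inv f)
    (hg : s.Inv g) (h : ∀ i, f (r i) = g (r i)) : f = g := by
  funext d
  obtain ⟨i, hi⟩ := s.exists_r hprim hm d
  rw [← (s.inv_iff f).mp hf _ _ hi, ← (s.inv_iff g).mp hg _ _ hi, h]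

theorem Setup.conv_comm {k : Type*} [CommRing k] {f g : DihedralGroup m → k} (hf : s.Inv f)
    (hg : s.Inv g) : conv f g = conv g f := by
  funext d
  rw [← s.inv_symm hprim hm (s.inv_conv hf hg) d, conv, conv,
    ← Equiv.sum_comp (Equiv.mulLeft d⁻¹)]
  refine Finset.sum_congr rfl fun e _ => ?_
  simp only [Equiv.coe_mulLeft]
  rw [mul_comm]
  congr 1
  · rw [mul_inv_rev, inv_inv, mul_assoc, mul_inv_cancel, mul_one, s.inv_symm hprim hm hg]
  · rw [← s.inv_symm hprim hm hf, mul_inv_rev, inv_inv]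

end Cfsg.Agent.PermGroups.DihedralB
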