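import Cfsg.Agent.PermGroups.DihedralBGroup.Power

/-!
Dihedral B-groups, part 5: the Fourier side; the rest class gives a quadratic element.
-/

set_option autoImplicit false
set_option linter.unusedSectionVars false

namespace Cfsg.Agent.PermGroups.DihedralB

open DihedralGroup MulAction

variable {m : ℕ} [NeZero m]

/-- The character. -/
noncomputable abbrev chr (i : ZMod m) : ℂ := ZMod.stdAddChar i

theorem chr_add (i j : ZMod m) : chr (i + j) = chr i * chr j :=
  AddChar.map_add_eq_mul (ZMod.stdAddChar (N := m)) i j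

theorem chr_zero : chr (0 : ZMod m) = 1 := AddChar.map_zero_eq_one (ZMod.stdAddChar (N := m))

theorem chr_eq_one_iff {i : ZMod m} : chr i = 1 ↔ i = 0 :=
  ⟨fun h => ZMod.injective_stdAddChar (h.trans chr_zero.symm), fun h => by rw [h, chr_zero]⟩

theorem sum_chr_mul (t : ZMod m) : ∑ i, chr (t * i) = if t = 0 then (m : ℂ) else 0 := by
  have := AddChar.sum_mulShift t (ZMod.isPrimitive_stdAddChar m)
  simp only [mul_comm _ t, ZMod.card] at this
  rw [this]
  split_ifs <;> simp

/-- The transform of the rotation values. -/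
noncomputable def hatU (t : ZMod m) (f : DihedralGroup m → ℤ) : ℂ :=
  ∑ i, (f (r i) : ℂ) * chr (t * i)

/-- The transform of the reflection values. -/
noncomputable def hatV (t : ZMod m) (f : DihedralGroup m → ℤ) : ℂ :=
  ∑ i, (f (sr i) : ℂ) * chr (t * i)

theorem sum_sum_shift (t : ZMod m) (a b : ZMod m → ℂ) :
    ∑ i, (∑ j, a j * b (i - j)) * chr (t * i) =
      (∑ j, a j * chr (t * j)) * ∑ i, b i * chr (t * i) := by
  simp only [Finset.sum_mul]
  rw [Finset.sum_comm]
  refine Finset.sum_congr rfl fun j _ => ?_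
  rw [Finset.mul_sum, ← Equiv.sum_comp (Equiv.addRight j)]
  refine Finset.sum_congr rfl fun i _ => ?_
  simp only [Equiv.coe_addRight, add_sub_cancel_right, mul_add, chr_add]
  ring

theorem hatU_conv (t : ZMod m) (f g : DihedralGroup m → ℤ) :
    hatU t (conv f g) = hatU t f * hatU t g + hatV (-t) f * hatV t g := by
  have e : hatV (-t) f = ∑ j, (f (sr (-j)) : ℂ) * chr (t * j) := by
    rw [hatV, ← Equiv.sum_comp (Equiv.neg (ZMod m))]
    exact Finset.sum_congr rfl fun j _ => by simp
  rw [e]
  unfold hatU hatV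
  rw [← sum_sum_shift, ← sum_sum_shift, ← Finset.sum_add_distrib]
  refine Finset.sum_congr rfl fun i _ => ?_
  rw [conv_r, ← add_mul]
  congr 1
  push_cast
  congr 1
  rw [← Equiv.sum_comp (Equiv.neg (ZMod m)) (fun j => (f (sr j) : ℂ) * (g (sr (j + i)) : ℂ))]
  exact Finset.sum_congr rfl fun j _ => by simp [sub_eq_neg_add]

theorem hatV_conv (t : ZMod m) (f g : DihedralGroup m → ℤ) (hf : ∀ i, f (r (-i)) = f (r i)) :
    hatV t (conv f g) = hatU t f * hatV t g + hatV t f * hatU t g := by
  unfold hatU hatV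
  rw [← sum_sum_shift, ← sum_sum_shift, ← Finset.sum_add_distrib]
  refine Finset.sum_congr rfl fun i _ => ?_
  rw [conv_sr, ← add_mul]
  congr 1
  push_cast
  congr 1
  rw [← Equiv.sum_comp (Equiv.neg (ZMod m))]
  exact Finset.sum_congr rfl fun j _ => by simp [hf, sub_eq_add_neg]

theorem hatU_eq_zero_of_periodic {t n : ZMod m} (ht : t * n ≠ 0) {f : DihedralGroup m → ℤ}
    (h : ∀ i, f (r (i + n)) = f (r i)) : hatU t f = 0 := by
  have e : hatU t f = chr (t * n) * hatU t f := by
    rw [hatU, Finset.mul_sum]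
    conv_lhs => rw [← Equiv.sum_comp (Equiv.addRight n)]
    refine Finset.sum_congr rfl fun i _ => ?_
    simp only [Equiv.coe_addRight, h, mul_add, chr_add]
    ring
  have h1 : (chr (t * n) - 1) * hatU t f = 0 := by rw [sub_mul, one_mul, ← e, sub_self]
  exact (mul_eq_zero.mp h1).resolve_left (sub_ne_zero.mpr fun h' => ht (chr_eq_one_iff.mp h'))

variable {G Ω : Type*} [Group G] [MulAction G Ω] (D : Data m G Ω)

theorem Data.fus_r_neg {k : Type*} {f : DihedralGroup m → k} (hf : D.Fus f) (i : ZMod m) :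
    f (r (-i)) = f (r i) := hf.2 _ _ (addOrderOf_neg i)

theorem Data.fus_comb {f g : DihedralGroup m → ℤ} (hf : D.Fus f) (hg : D.Fus g) (a b : ℤ) :
    D.Fus (fun d => a * f d + b * g d) :=
  ⟨fun h hh d => by simp only [hf.1 h hh d, hg.1 h hh d],
    fun i j hij => by simp only [hf.2 i j hij, hg.2 i j hij]⟩

theorem conv_comb_left (f g e : DihedralGroup m → ℤ) (a b : ℤ) :
    conv (fun d => a * f d + b * g d) e = fun d => a * conv f e d + b * conv g e d := by
  funext d
  simp only [conv, Finset.mul_sum]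
  rw [← Finset.sum_add_distrib]
  exact Finset.sum_congr rfl fun x _ => by ring

theorem conv_delta_left (e : DihedralGroup m → ℤ) : conv delta e = e := by
  funext d
  rw [conv, Finset.sum_eq_single 1]
  · simp [delta]
  · intro b _ hb; simp [delta, hb]
  · simp

/-- The setting: one prime `p` such that functions constant on orders are periodic. -/
structure Periodic (p : ℕ) (n : ZMod m) : Prop where
  prime : p.Prime
  ne_zero : n ≠ 0
  order : p • n = 0
  ker : ∀ i : ZMod m, p • i = 0 → i ≠ 0 → addOrderOf i = addOrderOf n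
  rel : ∀ i : ZMod m, p • i ≠ 0 → D.Rel (r i) (r (i + n))

open scoped Classical in
/-- The class avoiding the identity and the elements of order `p`. -/
noncomputable def Data.rest (n : ZMod m) : DihedralGroup m → ℤ :=
  fun d => if d ≠ 1 ∧ ¬ D.Rel (r n) d then 1 else 0

theorem Data.fus_rest (n : ZMod m) : D.Fus (D.rest n) := by
  classical
  exact D.fus_of_rel fun a b hab => if_congr
    ⟨fun h => ⟨fun e => h.1 (D.eq_one_of_rel (e ▸ D.rel_symm hab)),
      fun e => h.2 (D.rel_trans e (D.rel_symm hab))⟩,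
     fun h => ⟨fun e => h.1 (D.eq_one_of_rel (e ▸ hab)), fun e => h.2 (D.rel_trans e hab)⟩⟩ rfl rfl

theorem r_ne_one {n : ZMod m} (hn : n ≠ 0) : (r n : DihedralGroup m) ≠ 1 := fun e => by
  rw [← r_zero] at e
  injection e with e'
  exact hn e'

theorem Data.periodic_of_zero {p : ℕ} {n : ZMod m} (hp : Periodic D p n)
    {f : DihedralGroup m → ℤ} (hf : D.Fus f) (h1 : f 1 = 0) (h2 : f (r n) = 0) (i : ZMod m) :
    f (r (i + n)) = f (r i) := by
  by_cases hi : p • i = 0
  · have hz : ∀ x : ZMod m, p • x = 0 → f (r x) = 0 := by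
      intro x hx
      by_cases hx0 : x = 0
      · rw [hx0, r_zero, h1]
      · rw [hf.2 x n (hp.ker x hx hx0), h2]
    rw [hz i hi, hz (i + n) (by rw [smul_add, hi, hp.order, add_zero])]
  · exact (D.rel_apply hf (hp.rel i hi)).symm

theorem Data.hatU_one {p : ℕ} {n : ZMod m} (hp : Periodic D p n)
    {f : DihedralGroup m → ℤ} (hf : D.Fus f) :
    hatU 1 f = (f 1 : ℂ) - (f (r n) : ℂ) := by
  classical
  have hm1 : (1 : ZMod m) ≠ 0 := by
    intro e
    exact hp.ne_zero (by rw [← one_mul n, e, zero_mul])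
  -- remove the two special values
  let rem : DihedralGroup m → ℤ := fun d =>
    if d = 1 ∨ D.Rel (r n) d then 0 else f d
  have hrem : D.Fus rem := D.fus_of_rel fun a b hab => if_congr
    ⟨fun h => h.elim (fun e => Or.inl (D.eq_one_of_rel (e ▸ hab)))
        (fun e => Or.inr (D.rel_trans e hab)),
     fun h => h.elim (fun e => Or.inl (D.eq_one_of_rel (e ▸ D.rel_symm hab)))
        (fun e => Or.inr (D.rel_trans e (D.rel_symm hab)))⟩ rfl (D.rel_apply hf hab)
  have hnn : (1 : ZMod m) * n ≠ 0 := by rw [one_mul]; exact hp.ne_zero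
  have h1 : hatU 1 rem = 0 := hatU_eq_zero_of_periodic hnn
    (D.periodic_of_zero hp hrem (by simp [rem]) (by simp [rem, Data.Rel]))
  have h2 : hatU 1 (D.rest n) = 0 := hatU_eq_zero_of_periodic hnn
    (D.periodic_of_zero hp (D.fus_rest n) (by simp [Data.rest]) (by simp [Data.rest, Data.Rel]))
  have h3 : ∀ d, f d = rem d + (f 1 - f (r n)) * delta d + f (r n) * (1 - D.rest n d) := by
    intro d
    by_cases hd : d = 1
    · subst hd; simp [rem, Data.rest, delta]
    · by_cases hr : D.Rel (r n) d
      · simp [rem, Data.rest, delta, hd, hr, D.rel_apply hf hr]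
      · simp [rem, Data.rest, delta, hd, hr]
  have hs := sum_chr_mul (m := m) (1 : ZMod m)
  rw [if_neg hm1] at hs
  simp only [one_mul] at hs
  unfold hatU at h1 h2 ⊢
  simp only [one_mul] at h1 h2 ⊢
  calc ∑ i, (f (r i) : ℂ) * chr i
      = ∑ i, ((rem (r i) : ℂ) * chr i +
          ((f 1 : ℂ) - f (r n)) * ((delta (k := ℤ) (r i : DihedralGroup m) : ℂ) * chr i) +
          (f (r n) : ℂ) * (chr i - (D.rest n (r i) : ℂ) * chr i)) := by
        refine Finset.sum_congr rfl fun i _ => ?_
        rw [h3 (r i)]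
        push_cast
        ring
    _ = _ := by
        rw [Finset.sum_add_distrib, Finset.sum_add_distrib, ← Finset.mul_sum, ← Finset.mul_sum,
          Finset.sum_sub_distrib, h1, h2, hs, Finset.sum_eq_single 0]
        · rw [r_zero, chr_zero]; simp [delta]
        · intro b _ hb; simp [delta_r, hb]
        · simp

theorem conv_one_eq_dot {x z : DihedralGroup m → ℤ} (hz : ∀ d, z d⁻¹ = z d) :
    conv x z 1 = ∑ d, x d * z d := by
  simp [conv, hz]

/-- The square of the rest class is constant off the identity. -/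
theorem Data.rest_quadratic {p : ℕ} {n : ZMod m} (hp : Periodic D p n) {d : DihedralGroup m}
    (hd : d ≠ 1) :
    conv (D.rest n) (D.rest n) d = conv (D.rest n) (D.rest n) (r n) := by
  classical
  set B := D.rest n with hB
  have hBf : D.Fus B := D.fus_rest n
  set A := D.ind (r n) with hA
  have hAf : D.Fus A := D.fus_ind _
  set k₀ : ℤ := ∑ e, A e with hk₀
  have hAnn : ∀ e, 0 ≤ A e := fun e => by rw [hA]; unfold Data.ind; split_ifs <;> simp
  have hArn : A (r n) = 1 := if_pos fun _ _ => rfl
  have hk₀pos : 0 < k₀ := lt_of_lt_of_le (by rw [hArn]; exact one_pos)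
    (Finset.single_le_sum (f := A) (fun e _ => hAnn e) (Finset.mem_univ (r n)))
  have hA1 : A 1 = 0 := if_neg fun h => r_ne_one hp.ne_zero (D.eq_one_of_rel (D.rel_symm h))
  let E : DihedralGroup m → ℤ := fun e => k₀ * delta e + (-1) * A e
  have hEf : D.Fus E := D.fus_comb D.fus_delta hAf _ _
  have hsym : ∀ {f : DihedralGroup m → ℤ}, D.Fus f → ∀ e, f e⁻¹ = f e := fun hf e =>
    D.inv_symm D.prim D.two_le hf.1 e
  -- pairing with `E` evaluates the character
  have hpair : ∀ {x : DihedralGroup m → ℤ}, D.Fus x →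
      ((∑ e, x e * E e : ℤ) : ℂ) = (k₀ : ℂ) * hatU 1 x := by
    intro x hx
    have h1 : ∀ e, x e * E e = k₀ * (if e = 1 then x 1 else 0) + (-x (r n)) * A e := by
      intro e
      simp only [E, delta]
      by_cases he : e = 1
      · subst he; simp [hA1]; ring
      · by_cases hr : D.Rel (r n) e
        · simp [hA, Data.ind, he, hr, D.rel_apply hx hr]
        · simp [hA, Data.ind, he, hr]
    rw [Finset.sum_congr rfl fun e _ => h1 e, Finset.sum_add_distrib, ← Finset.mul_sum,
      ← Finset.mul_sum, Finset.sum_ite_eq' Finset.univ, if_pos (Finset.mem_univ _),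
      D.hatU_one hp hx, ← hk₀]
    push_cast
    ring
  set C2 := conv B B with hC2
  have hC2f : D.Fus C2 := D.fus_conv hBf hBf
  have hB0 : hatU 1 B = 0 := by
    rw [D.hatU_one hp hBf]
    simp [hB, Data.rest, Data.Rel]
  have hV0 : hatV 1 C2 = 0 := by
    rw [hC2, hatV_conv _ _ _ (D.fus_r_neg hBf), hB0, zero_mul, mul_zero, add_zero]
  set z := conv C2 E with hz
  have hzf : D.Fus z := D.fus_conv hC2f hEf
  have hdot : ∀ {x : DihedralGroup m → ℤ}, D.Fus x →
      ((∑ e, x e * z e : ℤ) : ℂ) = (k₀ : ℂ) * (hatU 1 x * hatU 1 C2) := by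
    intro x hx
    rw [← conv_one_eq_dot (hsym hzf), hz, ← conv_assoc, conv_one_eq_dot (hsym hEf),
      hpair (D.fus_conv hx hC2f), hatU_conv, hV0, mul_zero, add_zero]
  have hU1 : hatU (m := m) 1 delta = 1 := by
    rw [D.hatU_one hp D.fus_delta]
    simp [delta, r_ne_one hp.ne_zero]
  have hz1 : (z 1 : ℂ) = (k₀ : ℂ) * hatU 1 C2 := by
    have h := hdot (x := delta) D.fus_delta
    rw [hU1, one_mul] at h
    rw [← h]
    simp [delta]
  let w : DihedralGroup m → ℤ := fun e => k₀ * z e + (-z 1) * E e
  have hwf : D.Fus w := D.fus_comb hzf hEf _ _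
  have hw : w = 0 := by
    have h0 : ((∑ e, w e * w e : ℤ) : ℂ) = 0 := by
      have : ∀ e, w e * w e = k₀ * (w e * z e) + (-z 1) * (w e * E e) := fun e => by
        simp only [w]; ring
      rw [Finset.sum_congr rfl fun e _ => this e, Finset.sum_add_distrib, ← Finset.mul_sum,
        ← Finset.mul_sum, Int.cast_add, Int.cast_mul, Int.cast_mul, hdot hwf, hpair hwf,
        Int.cast_neg, hz1]
      ring
    funext e
    exact mul_self_eq_zero.mp ((Finset.sum_eq_zero_iff_of_nonneg fun x _ => mul_self_nonneg _).mp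
      (Int.cast_eq_zero.mp h0) e (Finset.mem_univ _))
  let y : DihedralGroup m → ℤ := fun e => k₀ * C2 e + (-z 1) * delta e
  have hyf : D.Fus y := D.fus_comb hC2f D.fus_delta _ _
  have hyE : conv y E = 0 := by
    rw [conv_comb_left, conv_delta_left, ← hz]
    exact hw
  have hAy : ∀ e, conv A y e = k₀ * y e := by
    intro e
    rw [D.conv_comm D.prim D.two_le hAf.1 hyf.1]
    have h1 := congrFun hyE e
    rw [D.conv_comm D.prim D.two_le hyf.1 hEf.1, conv_comb_left, conv_delta_left,
      D.conv_comm D.prim D.two_le hAf.1 hyf.1] at h1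
    simp only [Pi.zero_apply] at h1
    linarith
  -- the maximum principle
  obtain ⟨dm, -, hdm⟩ := (Finset.univ : Finset (DihedralGroup m)).exists_max_image y
    Finset.univ_nonempty
  set χ : DihedralGroup m → ℤ := fun e => if y e = y dm then 1 else 0 with hχ
  have hχf : D.Fus χ := ⟨fun g hg e => by simp only [hχ, hyf.1 g hg e],
    fun i j hij => by simp only [hχ, hyf.2 i j hij]⟩
  set N : ℤ := ∑ e, χ e with hN
  have hS : ∀ c, conv χ χ c = N ↔ ∀ e, y e = y dm → y (e⁻¹ * c) = y dm := by
    intro c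
    rw [hN, conv, eq_comm, ← sub_eq_zero, ← Finset.sum_sub_distrib,
      Finset.sum_eq_zero_iff_of_nonneg (fun e _ => by simp only [hχ]; split_ifs <;> simp)]
    constructor
    · intro h e he
      have := h e (Finset.mem_univ _)
      simp only [hχ, he, if_true, one_mul] at this
      by_contra hne
      simp [hne] at this
    · intro h e _
      by_cases he : y e = y dm
      · simp [hχ, he, h e he]
      · simp [hχ, he]
  have hconst : ∀ e, y e = y dm := by
    rcases D.eq_univ_or D.prim {c | conv χ χ c = N}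
      ((hS 1).mpr fun e he => by rw [mul_one, hsym hyf, he])
      (fun g hg c hc => ((D.fus_conv hχf hχf).1 g hg c).trans hc)
      (fun c hc e he => by
        rw [Set.mem_ofPred_eq, hS] at hc he ⊢
        intro x hx
        have h1 := hc x hx
        rw [← hsym hyf] at h1
        have h2 := he _ h1
        rwa [inv_inv, mul_assoc] at h2) with h | h
    · refine absurd (h (r n) ((hS _).mpr fun e he => ?_)) (r_ne_one hp.ne_zero)
      have h1 := hAy e
      rw [he] at h1
      have h2 : ∑ x, A x * (y dm - y (x⁻¹ * e)) = 0 := by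
        simp only [mul_sub, Finset.sum_sub_distrib, ← Finset.sum_mul, ← hk₀]
        rw [conv] at h1
        linarith
      have h3 := (Finset.sum_eq_zero_iff_of_nonneg fun x _ =>
        mul_nonneg (hAnn x) (sub_nonneg.mpr (hdm _ (Finset.mem_univ _)))).mp h2 (r n)
        (Finset.mem_univ _)
      rw [hArn, one_mul, sub_eq_zero] at h3
      -- symmetry moves the rotation to the right
      rw [← hsym hyf, mul_inv_rev, inv_inv]
      exact h3.symm
    · intro e
      have h1 := (hS (dm * e)).mp (h _) dm rfl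
      rwa [inv_mul_cancel_left] at h1
  have h1 := (hconst d).trans (hconst (r n)).symm
  simp only [y, delta, if_neg hd, if_neg (r_ne_one hp.ne_zero), mul_zero, add_zero] at h1
  exact mul_left_cancel₀ hk₀pos.ne' h1

end Cfsg.Agent.PermGroups.DihedralB
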