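import Cfsg.Agent.PermGroups.DihedralBGroup.Power

/-!
Dihedral B-groups, part 4: if only one class of functions constant on orders is left, then there
is only one nontrivial suborbit.
-/

set_option autoImplicit false
set_option linter.unusedSectionVars false

namespace Cfsg.Agent.PermGroups.DihedralB

open DihedralGroup MulAction

variable {m : ℕ} [NeZero m] {G Ω : Type*} [Group G] [MulAction G Ω] (D : Data m G Ω)

open scoped Classical in
/-- The suborbit. -/
noncomputable def Data.orbit (d : DihedralGroup m) : Finset (DihedralGroup m) :=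
  Finset.univ.filter (fun e => D.Orb d e)

open scoped Classical in
/-- The rotations in a suborbit. -/
noncomputable def Data.rots (d : DihedralGroup m) : Finset (ZMod m) :=
  Finset.univ.filter (fun i => D.Orb d (r i))

theorem Data.mem_orbit {d e : DihedralGroup m} : e ∈ D.orbit d ↔ D.Orb d e := by
  classical
  simp [Data.orbit]

theorem Data.mem_rots {d : DihedralGroup m} {i : ZMod m} : i ∈ D.rots d ↔ D.Orb d (r i) := by
  classical
  simp [Data.rots]

theorem Data.orbit_eq {d e : DihedralGroup m} (h : D.Orb d e) : D.orbit e = D.orbit d := by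
  ext x
  rw [D.mem_orbit, D.mem_orbit]
  exact ⟨fun h' => D.orb_trans h h', fun h' => D.orb_trans (D.orb_symm h) h'⟩

theorem Data.rots_eq {d e : DihedralGroup m} (h : D.Orb d e) : D.rots e = D.rots d := by
  ext x
  rw [D.mem_rots, D.mem_rots]
  exact ⟨fun h' => D.orb_trans h h', fun h' => D.orb_trans (D.orb_symm h) h'⟩

theorem exists_big_prime {i j : ZMod m} (h : addOrderOf i = addOrderOf j) :
    ∃ P : ℕ, P.Prime ∧ 2 * m + 2 < P ∧ P • i = j := by
  obtain ⟨c, hc, rfl⟩ := exists_nsmul_of_addOrderOf_eq h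
  obtain ⟨P, hP, hPp, hPc⟩ := Nat.forall_exists_prime_gt_and_modEq (2 * m + 2)
    (addOrderOf_pos i).ne' hc
  exact ⟨P, hPp, hP, nsmul_eq_nsmul_iff_modEq.mpr hPc⟩

theorem Data.rots_orbit_of_order {i j : ZMod m} (h : addOrderOf i = addOrderOf j) :
    (D.rots (r j)).card ≤ (D.rots (r i)).card ∧
      ((D.rots (r j)).card = (D.rots (r i)).card →
        (D.orbit (r j)).card = (D.orbit (r i)).card) := by
  classical
  obtain ⟨P, hPp, hP, hPi⟩ := exists_big_prime h
  haveI := Fact.mk hPp
  have hinj : Function.Injective (fun x : ZMod m => P • x) := by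
    intro a b hab
    have h1 : addOrderOf (a - b) ∣ P :=
      addOrderOf_dvd_of_nsmul_eq_zero (by
        rw [smul_sub, sub_eq_zero]; exact hab)
    rcases (Nat.dvd_prime hPp).mp h1 with e | e
    · exact sub_eq_zero.mp (AddMonoid.addOrderOf_eq_one_iff.mp e)
    · have := Nat.le_of_dvd (NeZero.pos m) (e ▸ addOrderOf_dvd_m (a - b))
      omega
  let F : DihedralGroup m → ZMod P := fun e => if D.Orb (r i) e then 1 else 0
  have hF : D.Inv F := (D.inv_iff F).mpr fun a b hab => if_congr
    ⟨fun h' => D.orb_trans h' (D.orb_symm hab), fun h' => D.orb_trans h' hab⟩ rfl rfl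
  let x := D.elt F hF
  have hval : ∀ z : ZMod m, D.coef (x ^ P) (r (P • z)) = if z ∈ D.rots (r i) then 1 else 0 := by
    intro z
    rw [D.coef_pow_char (by omega), Finset.sum_eq_single z, D.coef_elt]
    · exact if_congr (D.mem_rots).symm rfl rfl
    · intro b hb hne
      exact absurd (hinj (Finset.mem_filter.mp hb).2) hne
    · intro h'
      exact absurd (by simp only [Finset.mem_filter, Finset.mem_univ, true_and]) h'
  have hj1 : D.coef (x ^ P) (r j) = 1 := by
    rw [← hPi, hval, if_pos (D.mem_rots.mpr (D.orb_refl _))]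
  have hsub : D.rots (r j) ⊆ (D.rots (r i)).image (fun x => P • x) := by
    intro y hy
    obtain ⟨z, rfl⟩ := (Finite.injective_iff_surjective.mp hinj) y
    refine Finset.mem_image.mpr ⟨z, ?_, rfl⟩
    by_contra hz
    have := (D.inv_iff _).mp (D.coef_inv (x ^ P)) _ _ (D.mem_rots.mp hy)
    rw [hj1, hval, if_neg hz] at this
    exact zero_ne_one this
  have hle := Finset.card_le_card hsub
  rw [Finset.card_image_of_injective _ hinj] at hle
  refine ⟨hle, fun hcard => ?_⟩
  have himg : D.rots (r j) = (D.rots (r i)).image (fun x => P • x) :=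
    Finset.eq_of_subset_of_card_le hsub (by rw [Finset.card_image_of_injective _ hinj, hcard])
  let F' : DihedralGroup m → ZMod P := fun e => if D.Orb (r j) e then 1 else 0
  have hF' : D.Inv F' := (D.inv_iff F').mpr fun a b hab => if_congr
    ⟨fun h' => D.orb_trans h' (D.orb_symm hab), fun h' => D.orb_trans h' hab⟩ rfl rfl
  have heq : D.coef (x ^ P) = F' := by
    refine D.eq_of_r D.prim D.two_le (D.coef_inv _) hF' fun y => ?_
    obtain ⟨z, rfl⟩ := (Finite.injective_iff_surjective.mp hinj) y
    rw [hval]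
    refine if_congr ?_ rfl rfl
    rw [← D.mem_rots, himg]
    exact ⟨fun hz => Finset.mem_image_of_mem _ hz, fun hz => by
      obtain ⟨w, hw, e⟩ := Finset.mem_image.mp hz
      exact hinj e ▸ hw⟩
  have hs := D.sum_coef_pow x P
  rw [heq, D.coef_elt, ZMod.pow_card] at hs
  have e : ∀ (d : DihedralGroup m), (∑ e, (if D.Orb d e then 1 else 0 : ZMod P)) =
      ((D.orbit d).card : ZMod P) := fun d => by
    rw [Finset.sum_boole]; rfl
  rw [e, e, ZMod.natCast_eq_natCast_iff] at hs
  refine Nat.ModEq.eq_of_lt_of_lt hs ?_ ?_ <;>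
  · refine lt_of_le_of_lt (Finset.card_le_univ _) ?_
    rw [DihedralGroup.card]
    omega

/-- A single class forces a single nontrivial suborbit. -/
theorem Data.orb_of_single {d₀ : DihedralGroup m} (hd₀ : d₀ ≠ 1)
    (h : ∀ d : DihedralGroup m, d ≠ 1 → D.Rel d₀ d) {d : DihedralGroup m} (hd : d ≠ 1) :
    D.Orb d₀ d := by
  classical
  have hrel : ∀ c, c ≠ 1 → (D.rots c).card = (D.rots d₀).card ∧
      (D.orbit c).card = (D.orbit d₀).card := by
    intro c hc
    have h1 : D.Fus (fun e => (((D.rots e).card : ℤ))) := by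
      refine ⟨fun g hg e => by simp only [D.rots_eq ⟨g, hg, rfl⟩], fun a b hab => ?_⟩
      show ((D.rots (r a)).card : ℤ) = (D.rots (r b)).card
      rw [le_antisymm (D.rots_orbit_of_order hab.symm).1 (D.rots_orbit_of_order hab).1]
    have h2 : D.Fus (fun e => (((D.orbit e).card : ℤ))) := by
      refine ⟨fun g hg e => by simp only [D.orbit_eq ⟨g, hg, rfl⟩], fun a b hab => ?_⟩
      show ((D.orbit (r a)).card : ℤ) = (D.orbit (r b)).card
      rw [(D.rots_orbit_of_order hab).2
        (le_antisymm (D.rots_orbit_of_order hab).1 (D.rots_orbit_of_order hab.symm).1)]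
    exact ⟨Int.ofNat_inj.mp (h c hc _ h1).symm, Int.ofNat_inj.mp (h c hc _ h2).symm⟩
  let U := (Finset.univ : Finset (DihedralGroup m)).erase 1
  have horb1 : ∀ {a b}, D.Orb a b → b = 1 → a = 1 := by
    rintro a b ⟨g, hg, e⟩ rfl
    exact (D.act_eq_one_iff hg a).mp e
  let Q := U.image D.orbit
  -- double counting
  have hfib : ∀ O ∈ Q, (U.filter (fun x => D.orbit x = O)).card = (D.orbit d₀).card ∧
      (((Finset.univ : Finset (ZMod m)).erase 0).filter (fun i => D.orbit (r i) = O)).card =
        (D.rots d₀).card := by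
    intro O hO
    obtain ⟨c, hc, rfl⟩ := Finset.mem_image.mp hO
    have hc1 : c ≠ 1 := (Finset.mem_erase.mp hc).1
    have hiff : ∀ x, D.orbit x = D.orbit c ↔ D.Orb c x := fun x =>
      ⟨fun e => D.mem_orbit.mp (e ▸ D.mem_orbit.mpr (D.orb_refl x)), fun e => D.orbit_eq e⟩
    constructor
    · rw [← (hrel c hc1).2]
      congr 1
      ext x
      simp only [Finset.mem_filter, hiff, D.mem_orbit]
      exact ⟨fun hx => hx.2, fun hx => ⟨Finset.mem_erase.mpr
        ⟨fun e => hc1 (horb1 hx e), Finset.mem_univ _⟩, hx⟩⟩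
    · rw [← (hrel c hc1).1]
      congr 1
      ext x
      simp only [Finset.mem_filter, hiff, D.mem_rots]
      exact ⟨fun hx => hx.2, fun hx => ⟨Finset.mem_erase.mpr
        ⟨fun e => hc1 (horb1 hx (by rw [e, r_zero])), Finset.mem_univ _⟩, hx⟩⟩
  have e1 : U.card = Q.card * (D.orbit d₀).card := by
    rw [Finset.card_eq_sum_card_fiberwise (f := D.orbit) (t := Q)
      (fun x hx => Finset.mem_image_of_mem _ hx), Finset.sum_congr rfl fun O hO => (hfib O hO).1,
      Finset.sum_const, smul_eq_mul]
  have e2 : ((Finset.univ : Finset (ZMod m)).erase 0).card = Q.card * (D.rots d₀).card := by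
    rw [Finset.card_eq_sum_card_fiberwise (f := fun i => D.orbit (r i)) (t := Q) (fun i hi => ?_),
      Finset.sum_congr rfl fun O hO => (hfib O hO).2, Finset.sum_const, smul_eq_mul]
    refine Finset.mem_image_of_mem _ (Finset.mem_erase.mpr ⟨fun e => ?_, Finset.mem_univ _⟩)
    rw [← r_zero] at e
    injection e with e'
    exact (Finset.mem_erase.mp hi).1 e'
  rw [Finset.card_erase_of_mem (Finset.mem_univ _), Finset.card_univ, DihedralGroup.card] at e1
  rw [Finset.card_erase_of_mem (Finset.mem_univ _), Finset.card_univ, ZMod.card] at e2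
  have hQ : Q.card = 1 := by
    have := D.two_le
    have h1 : Q.card ∣ 2 * m - 1 := ⟨_, e1⟩
    have h2 : Q.card ∣ 2 * (m - 1) := dvd_mul_of_dvd_right ⟨_, e2⟩ 2
    have h3 := Nat.dvd_sub h1 h2
    rwa [show 2 * m - 1 - 2 * (m - 1) = 1 from by omega, Nat.dvd_one] at h3
  have hm₀ : D.orbit d₀ ∈ Q :=
    Finset.mem_image_of_mem _ (Finset.mem_erase.mpr ⟨hd₀, Finset.mem_univ _⟩)
  have hm₁ : D.orbit d ∈ Q :=
    Finset.mem_image_of_mem _ (Finset.mem_erase.mpr ⟨hd, Finset.mem_univ _⟩)
  have he := Finset.card_le_one.mp hQ.le _ hm₁ _ hm₀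
  exact D.mem_orbit.mp (he ▸ D.mem_orbit.mpr (D.orb_refl d))

end Cfsg.Agent.PermGroups.DihedralB
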