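import Cfsg.Agent.PermGroups.DihedralBGroup.Period
import Cfsg.Agent.PermGroups.DihedralBGroup.Single
import Cfsg.Agent.PermGroups.DihedralBGroup.Quadratic

/-!
Dihedral B-groups, part 6: the counting contradiction and Schur–Wielandt's theorem.
-/

set_option autoImplicit false
set_option linter.unusedSectionVars false
set_option linter.style.haveILetI false

namespace Cfsg.Agent.PermGroups.DihedralB

open DihedralGroup MulAction

theorem zmod_two_cases (x : ZMod 2) : x = 0 ∨ x = 1 := by revert x; decide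

theorem zmod_eight_cases (x : ZMod 8) :
    x = 0 ∨ x = 1 ∨ x = 2 ∨ x = 3 ∨ x = 4 ∨ x = 5 ∨ x = 6 ∨ x = 7 := by revert x; decide

variable {m : ℕ} [NeZero m] {G Ω : Type*} [Group G] [MulAction G Ω] (D : Data m G Ω)

theorem bool_val {d : DihedralGroup m} (n : ZMod m) : D.rest n d = 0 ∨ D.rest n d = 1 := by
  classical
  unfold Data.rest
  split_ifs <;> simp

/-- What the quadratic relation says about the transforms. -/
theorem Data.transforms {p : ℕ} {n : ZMod m} (hp : Periodic D p n) :
    ∃ D2 μ : ℤ,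
      (∀ t : ZMod m, hatU t (D.rest n) ^ 2 + hatV (-t) (D.rest n) * hatV t (D.rest n) =
        (D2 : ℂ) + (μ : ℂ) * (if t = 0 then (m : ℂ) else 0)) ∧
      (∀ t : ZMod m, 2 * (hatU t (D.rest n) * hatV t (D.rest n)) =
        (μ : ℂ) * (if t = 0 then (m : ℂ) else 0)) ∧
      ∑ d, D.rest n d = D2 + μ := by
  classical
  set B := D.rest n with hB
  have hBf : D.Fus B := D.fus_rest n
  set μ := conv B B (r n) with hμ
  refine ⟨conv B B 1 - μ, μ, fun t => ?_, fun t => ?_, ?_⟩
  · rw [sq, ← hatU_conv]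
    have e : ∀ i : ZMod m, ((conv B B (r i) : ℤ) : ℂ) =
        ((conv B B 1 - μ : ℤ) : ℂ) * (if i = 0 then 1 else 0) + (μ : ℂ) := by
      intro i
      by_cases hi : i = 0
      · subst hi; rw [r_zero, if_pos rfl]; push_cast; ring
      · rw [D.rest_quadratic hp (r_ne_one hi), if_neg hi, mul_zero, zero_add]
    rw [hatU, Finset.sum_congr rfl fun i _ => by rw [e i, add_mul, mul_assoc],
      Finset.sum_add_distrib, ← Finset.mul_sum, ← Finset.mul_sum, sum_chr_mul]
    congr 1
    rw [Finset.sum_eq_single 0]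
    · rw [if_pos rfl, mul_zero, chr_zero, one_mul, mul_one]
    · intro b _ hb; rw [if_neg hb, zero_mul]
    · simp
  · have h : hatV t (conv B B) = (μ : ℂ) * (if t = 0 then (m : ℂ) else 0) := by
      rw [hatV, Finset.sum_congr rfl fun i _ => by
        rw [D.rest_quadratic hp (show (sr i : DihedralGroup m) ≠ 1 from fun e => by
          rw [← r_zero] at e; injection e)],
        ← Finset.mul_sum, sum_chr_mul]
    rw [← h, hatV_conv _ _ _ (D.fus_r_neg hBf)]
    ring
  · rw [sub_add_cancel, conv_one_eq_dot (fun d => D.inv_symm D.prim D.two_le hBf.1 d)]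
    refine Finset.sum_congr rfl fun d _ => ?_
    rcases bool_val D (d := d) n with h | h <;> rw [← hB] at h <;> rw [h] <;> norm_num

theorem sum_hatU_sq (f : DihedralGroup m → ℤ) (hf : ∀ i, f (r (-i)) = f (r i))
    (hb : ∀ i, f (r i) = 0 ∨ f (r i) = 1) :
    ∑ t, hatU t f ^ 2 = (m : ℂ) * ((∑ i, f (r i) : ℤ) : ℂ) := by
  classical
  have e : ∀ t, hatU t f ^ 2 = ∑ i, ∑ j, (f (r i) : ℂ) * (f (r j) : ℂ) * chr (t * (i + j)) := by
    intro t
    rw [sq, hatU, Finset.sum_mul_sum]
    refine Finset.sum_congr rfl fun i _ => Finset.sum_congr rfl fun j _ => ?_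
    rw [mul_add, chr_add]
    ring
  rw [Finset.sum_congr rfl fun t _ => e t, Finset.sum_comm, Int.cast_sum, Finset.mul_sum]
  refine Finset.sum_congr rfl fun i _ => ?_
  rw [Finset.sum_comm, Finset.sum_eq_single (-i)]
  · rw [← Finset.mul_sum, add_neg_cancel]
    simp only [mul_zero, chr_zero, Finset.sum_const, Finset.card_univ, ZMod.card, nsmul_eq_mul,
      mul_one, hf]
    rcases hb i with h | h <;> rw [h] <;> simp
  · intro j _ hj
    rw [← Finset.mul_sum]
    simp only [mul_comm _ (i + j), sum_chr_mul]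
    rw [if_neg, mul_zero]
    intro h
    exact hj (eq_neg_of_add_eq_zero_right h)
  · simp

/-- The numerical facts. -/
theorem Data.numbers {p : ℕ} {n : ZMod m} (hp : Periodic D p n) (hne : D.rest n ≠ 0) :
    ∃ a b D2 μ : ℤ, a = ∑ i, D.rest n (r i) ∧ b = ∑ i, D.rest n (sr i) ∧
      0 < a ∧ a < m ∧ a ^ 2 + b ^ 2 = D2 + μ * m ∧ 2 * (a * b) = μ * m ∧ a + b = D2 + μ ∧
      0 < D2 ∧
      (∀ t : ZMod m, t ≠ 0 → hatU t (D.rest n) ≠ 0 → hatU t (D.rest n) ^ 2 = (D2 : ℂ)) ∧
      ∀ S : Finset (ZMod m), (∀ t, t ≠ 0 → hatU t (D.rest n) ≠ 0 → t ∈ S) → (0 : ZMod m) ∈ S →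
        a * (m - a) ≤ ((S.card : ℤ) - 1) * D2 := by
  classical
  obtain ⟨D2, μ, h1, h2, h3⟩ := D.transforms hp
  set B := D.rest n with hB
  have hBf : D.Fus B := D.fus_rest n
  have hb : ∀ d, B d = 0 ∨ B d = 1 := fun d => bool_val D n
  have hnn : ∀ d, 0 ≤ B d := fun d => by rcases hb d with h | h <;> omega
  set a := ∑ i, B (r i) with ha
  set b := ∑ i, B (sr i) with hbdef
  have ha0 : 0 < a := by
    rcases (Finset.sum_nonneg fun i _ => hnn (r i)).lt_or_eq with h | h
    · exact h
    · refine absurd (D.eq_zero_of_r D.prim D.two_le hBf.1 fun i => ?_) hne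
      exact (Finset.sum_eq_zero_iff_of_nonneg fun i _ => hnn (r i)).mp h.symm i (Finset.mem_univ _)
  have ham : a < m := by
    calc a < ∑ _i : ZMod m, (1 : ℤ) := Finset.sum_lt_sum
          (fun i _ => by rcases hb (r i) with h | h <;> omega)
          ⟨0, Finset.mem_univ _, by rw [r_zero, hB]; simp [Data.rest]⟩
      _ = m := by simp [ZMod.card]
  have hU0 : hatU 0 B = (a : ℂ) := by simp [hatU, ha, chr_zero]
  have hV0 : hatV 0 B = (b : ℂ) := by simp [hatV, hbdef, chr_zero]
  have e1 := h1 0
  rw [neg_zero, hU0, hV0, if_pos rfl, ← sq] at e1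
  have e1' : a ^ 2 + b ^ 2 = D2 + μ * m := by exact_mod_cast e1
  have e2 := h2 0
  rw [hU0, hV0, if_pos rfl] at e2
  have e2' : 2 * (a * b) = μ * m := by exact_mod_cast e2
  have e3 : a + b = D2 + μ := by rw [← h3, sum_split]
  have hsq : ∀ t : ZMod m, t ≠ 0 → hatU t B ≠ 0 → hatU t B ^ 2 = (D2 : ℂ) := by
    intro t ht hU
    have h2' := h2 t
    rw [if_neg ht, mul_zero] at h2'
    have hV : hatV t B = 0 :=
      (mul_eq_zero.mp ((mul_eq_zero.mp h2').resolve_left two_ne_zero)).resolve_left hU
    have h1' := h1 t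
    rwa [if_neg ht, mul_zero, add_zero, hV, mul_zero, add_zero] at h1'
  -- Parseval
  have hP := sum_hatU_sq B (D.fus_r_neg hBf) (fun i => hb _)
  rw [← ha] at hP
  let T := (Finset.univ.erase (0 : ZMod m)).filter (fun t => hatU t B ≠ 0)
  have hT : (T.card : ℤ) * D2 = a * (m - a) := by
    have e4 : ∑ t ∈ Finset.univ.erase (0 : ZMod m), hatU t B ^ 2 = (T.card : ℂ) * (D2 : ℂ) := by
      rw [← Finset.sum_filter_of_ne (p := fun t => hatU t B ≠ 0) (fun t _ h h' => h (by simp [h'])),
        Finset.sum_congr rfl fun t ht => hsq t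
          (Finset.mem_erase.mp (Finset.mem_filter.mp ht).1).1 (Finset.mem_filter.mp ht).2,
        Finset.sum_const, nsmul_eq_mul]
    rw [← Finset.add_sum_erase _ _ (Finset.mem_univ (0 : ZMod m)), hU0, e4] at hP
    have : a ^ 2 + (T.card : ℤ) * D2 = m * a := by exact_mod_cast hP
    linarith [this]
  have hD2 : 0 < D2 := by
    have : 0 < a * ((m : ℤ) - a) := mul_pos ha0 (by omega)
    rw [← hT] at this
    exact pos_of_mul_pos_right this (by positivity)
  refine ⟨a, b, D2, μ, rfl, rfl, ha0, ham, e1', e2', e3, hD2, hsq, fun S hS h0 => ?_⟩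
  rw [← hT]
  refine mul_le_mul_of_nonneg_right ?_ hD2.le
  have hsub : T ⊆ S.erase 0 := fun t ht => by
    have h' := Finset.mem_filter.mp ht
    exact Finset.mem_erase.mpr ⟨(Finset.mem_erase.mp h'.1).1,
      hS t (Finset.mem_erase.mp h'.1).1 h'.2⟩
  have := Finset.card_le_card hsub
  rw [Finset.card_erase_of_mem h0] at this
  have := Finset.card_pos.mpr ⟨_, h0⟩
  omega

theorem arith {m r a b D2 μ : ℤ} (hr : 3 ≤ r) (ha : r ≤ a) (ham : a + r ≤ m)
    (h1 : a ^ 2 + b ^ 2 = D2 + μ * m) (h2 : 2 * (a * b) = μ * m) (h3 : a + b = D2 + μ)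
    (hD : 0 < D2) (hS : r * (a * (m - a)) < m * D2) : False := by
  have hab : (a - b) ^ 2 = D2 := by linear_combination h1 - h2
  have hpos : 0 ≤ a * (m - a) := mul_nonneg (by omega) (by omega)
  have h3a : 3 * (a * (m - a)) < m * D2 :=
    lt_of_le_of_lt (mul_le_mul_of_nonneg_right hr hpos) hS
  -- the key identity
  have key : 2 * (a * (m - a)) = (m - 1) * D2 + (a - b) * (m - (a + b)) := by
    linear_combination m * h3 - h1
  have hk : (m - (a + b)) ^ 2 = m ^ 2 - (2 * m - 1) * D2 := by
    linear_combination h1 + h2 - 2 * m * h3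
  have h4 : (m - 3) * D2 < -3 * ((a - b) * (m - (a + b))) := by linarith
  have h5 : 0 ≤ (m - 3) * D2 := mul_nonneg (by omega) hD.le
  have h6 : ((m - 3) * D2) ^ 2 < (-3 * ((a - b) * (m - (a + b)))) ^ 2 :=
    pow_lt_pow_left₀ h4 h5 two_ne_zero
  have h7 : D2 * (D2 * (m ^ 2 + 12 * m) - 9 * m ^ 2) < 0 := by
    have e : ((m - 3) * D2) ^ 2 - (-3 * ((a - b) * (m - (a + b)))) ^ 2 =
        D2 * (D2 * (m ^ 2 + 12 * m) - 9 * m ^ 2) := by
      linear_combination (-9 * (m - (a + b)) ^ 2) * hab + (-9 * D2) * hk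
    linarith
  have h8 : D2 * (m ^ 2 + 12 * m) - 9 * m ^ 2 < 0 := neg_of_mul_neg_right h7 hD.le
  have h9 : D2 < 9 := by
    by_contra h
    have h' : 9 * (m ^ 2 + 12 * m) ≤ D2 * (m ^ 2 + 12 * m) :=
      mul_le_mul_of_nonneg_right (by omega) (add_nonneg (sq_nonneg m) (by omega))
    linarith
  have h10 : D2 ≤ 4 := by
    have h11 : |a - b| < 3 := by
      refine abs_lt_of_sq_lt_sq ?_ (by norm_num)
      rw [hab]; linarith
    obtain ⟨l, u⟩ := abs_lt.mp h11
    have : a - b = -2 ∨ a - b = -1 ∨ a - b = 0 ∨ a - b = 1 ∨ a - b = 2 := by omega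
    rcases this with e | e | e | e | e <;> rw [e] at hab <;> norm_num at hab <;> omega
  have h12 : 3 * (m - 3) ≤ a * (m - a) := by
    have : 0 ≤ (a - 3) * (m - a - 3) := mul_nonneg (by omega) (by omega)
    linarith
  have h13 : m * D2 ≤ m * 4 := mul_le_mul_of_nonneg_left h10 (by omega)
  omega

theorem card_filter_le {r nr : ℕ} (hrn : r * nr = m) :
    ((Finset.univ : Finset (ZMod m)).filter (fun t => t * (nr : ZMod m) = 0)).card ≤ nr := by
  classical
  have hnr : 0 < nr := by
    rcases Nat.eq_zero_or_pos nr with h | h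
    · exact absurd (by rw [← hrn, h, mul_zero]) (NeZero.ne m)
    · exact h
  have h : ((Finset.univ : Finset (ZMod m)).filter (fun t => t * (nr : ZMod m) = 0)) =
      Finset.univ.filter (fun t : ZMod m => nr • t = 0) := by
    refine Finset.filter_congr fun t _ => ?_
    rw [nsmul_eq_mul, mul_comm]
  rw [h]
  exact IsAddCyclic.card_nsmul_eq_zero_le hnr

/-- No rest class periodic under a subgroup of order at least three. -/
theorem Data.false_of_periodic {p : ℕ} {n : ZMod m} (hp : Periodic D p n) (hne : D.rest n ≠ 0)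
    {r' nr : ℕ} (hr : 3 ≤ r') (hrn : r' * nr = m)
    (hper : ∀ i, D.rest n (r (i + (nr : ZMod m))) = D.rest n (r i)) : False := by
  classical
  obtain ⟨a, b, D2, μ, ha, -, ha0, ham, h1, h2, h3, hD, -, hS⟩ := D.numbers hp hne
  set B := D.rest n with hB
  have hb : ∀ d, B d = 0 ∨ B d = 1 := fun d => bool_val D n
  have hnr0 : nr ≠ 0 := fun h => NeZero.ne m (by rw [← hrn, h, mul_zero])
  -- a coset lies in one level set
  have hcoset : ∀ i, ∀ j : ℕ, B (r (i + j • (nr : ZMod m))) = B (r i) := by
    intro i j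
    induction j with
    | zero => rw [zero_smul, add_zero]
    | succ j ih => rw [succ_nsmul, ← add_assoc, hper, ih]
  have hord : addOrderOf (nr : ZMod m) = r' := by
    rw [ZMod.addOrderOf_coe nr (NeZero.ne m), ← hrn, Nat.gcd_mul_left_left,
      Nat.mul_div_cancel _ (Nat.pos_of_ne_zero hnr0)]
  have hcard : ∀ i, ((Finset.range r').image fun j => i + j • (nr : ZMod m)).card = r' := by
    intro i
    rw [Finset.card_image_of_injOn, Finset.card_range]
    intro x hx y hy h
    refine nsmul_injOn_Iio_addOrderOf ?_ ?_ (add_left_cancel h) <;> rw [Set.mem_Iio, hord]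
    · exact Finset.mem_range.mp hx
    · exact Finset.mem_range.mp hy
  obtain ⟨i₀, hi₀⟩ : ∃ i, B (r i) = 1 := by
    by_contra hcon
    push Not at hcon
    have : a = 0 := by
      rw [ha]
      exact Finset.sum_eq_zero fun i _ => (hb _).resolve_right (hcon i)
    omega
  have ha_ge : (r' : ℤ) ≤ a := by
    rw [ha]
    refine le_trans ?_ (Finset.sum_le_sum_of_subset_of_nonneg
      (Finset.subset_univ ((Finset.range r').image fun j => i₀ + j • (nr : ZMod m)))
      fun i _ _ => by rcases hb (r i) with h | h <;> omega)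
    rw [Finset.sum_congr rfl (g := fun _ => (1 : ℤ)) fun x hx => by
        obtain ⟨j, -, rfl⟩ := Finset.mem_image.mp hx
        rw [hcoset, hi₀],
      Finset.sum_const, hcard, nsmul_eq_mul, mul_one]
  have ha_le : a + (r' : ℤ) ≤ m := by
    have hz : B (r (0 : ZMod m)) = 0 := by rw [r_zero, hB]; simp [Data.rest]
    have : (r' : ℤ) ≤ ∑ i, (1 - B (r i)) := by
      refine le_trans ?_ (Finset.sum_le_sum_of_subset_of_nonneg
        (Finset.subset_univ ((Finset.range r').image fun j => (0 : ZMod m) + j • (nr : ZMod m)))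
        fun i _ _ => by rcases hb (r i) with h | h <;> omega)
      rw [Finset.sum_congr rfl (g := fun _ => (1 : ℤ)) fun x hx => by
          obtain ⟨j, -, rfl⟩ := Finset.mem_image.mp hx
          rw [hcoset, hz, sub_zero],
        Finset.sum_const, hcard, nsmul_eq_mul, mul_one]
    rw [Finset.sum_sub_distrib, ← ha] at this
    simp only [Finset.sum_const, Finset.card_univ, ZMod.card, nsmul_eq_mul, mul_one] at this
    omega
  let S := (Finset.univ : Finset (ZMod m)).filter (fun t => t * (nr : ZMod m) = 0)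
  have h4 := hS S (fun t _ ht => Finset.mem_filter.mpr ⟨Finset.mem_univ _, by
    by_contra h
    exact ht (hatU_eq_zero_of_periodic h hper)⟩) (by simp [S])
  have h5 : (S.card : ℤ) ≤ nr := by exact_mod_cast card_filter_le hrn
  refine arith (r := (r' : ℤ)) (by omega) ha_ge ha_le h1 h2 h3 hD ?_
  have h6 : (r' : ℤ) * nr = m := by exact_mod_cast hrn
  calc (r' : ℤ) * (a * (m - a)) ≤ (r' : ℤ) * (((S.card : ℤ) - 1) * D2) :=
        mul_le_mul_of_nonneg_left h4 (by omega)
    _ ≤ (r' : ℤ) * (((nr : ℤ) - 1) * D2) :=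
        mul_le_mul_of_nonneg_left (mul_le_mul_of_nonneg_right (by omega) hD.le) (by omega)
    _ = (m : ℤ) * D2 - (r' : ℤ) * D2 := by rw [← h6]; ring
    _ < (m : ℤ) * D2 := sub_lt_self _ (mul_pos (by omega) hD)

theorem eight_impossible {h : ℤ} (hh : h = 0 ∨ h = 1) (u v : ZMod 8 → ℤ)
    (hu : ∀ i, u i = ![0, h, 1, h, 0, h, 1, h] i) (hv : ∀ i, v i = 0 ∨ v i = 1) (μ : ℤ)
    (hk : ∑ i, u i + ∑ i, v i = 4 + μ)
    (h1 : ∀ i : ZMod 8, ∑ j, u j * v (i + j) + ∑ j, v j * u (i - j) = μ)
    (h2 : ∑ j, u j * u (1 - j) + ∑ j, v j * v (j + 1) = μ) : False := by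
  have hsum : ∀ F : ZMod 8 → ℤ, ∑ i, F i = F 0 + F 1 + F 2 + F 3 + F 4 + F 5 + F 6 + F 7 :=
    fun F => Fin.sum_univ_eight F
  have e0 := h1 0
  have e1 := h1 1
  have e2 := h1 2
  have e3 := h1 3
  simp only [hsum] at hk e0 e1 e2 e3 h2
  have u0 : u 0 = 0 := hu 0
  have u1 : u 1 = h := hu 1
  have u2 : u 2 = 1 := hu 2
  have u3 : u 3 = h := hu 3
  have u4 : u 4 = 0 := hu 4
  have u5 : u 5 = h := hu 5
  have u6 : u 6 = 1 := hu 6
  have u7 : u 7 = h := hu 7
  simp only [show (1 : ZMod 8) + 1 = 2 from rfl, show (2 : ZMod 8) + 1 = 3 from rfl,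
    show (3 : ZMod 8) + 1 = 4 from rfl, show (4 : ZMod 8) + 1 = 5 from rfl,
    show (5 : ZMod 8) + 1 = 6 from rfl, show (6 : ZMod 8) + 1 = 7 from rfl,
    show (7 : ZMod 8) + 1 = 0 from rfl, zero_add, zero_sub, add_zero, sub_zero, sub_self,
    show (1 : ZMod 8) + 2 = 3 from rfl, show (1 : ZMod 8) + 3 = 4 from rfl,
    show (1 : ZMod 8) + 4 = 5 from rfl, show (1 : ZMod 8) + 5 = 6 from rfl,
    show (1 : ZMod 8) + 6 = 7 from rfl, show (1 : ZMod 8) + 7 = 0 from rfl,
    show (2 : ZMod 8) + 2 = 4 from rfl, show (2 : ZMod 8) + 3 = 5 from rfl,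
    show (2 : ZMod 8) + 4 = 6 from rfl, show (2 : ZMod 8) + 5 = 7 from rfl,
    show (2 : ZMod 8) + 6 = 0 from rfl, show (2 : ZMod 8) + 7 = 1 from rfl,
    show (3 : ZMod 8) + 2 = 5 from rfl, show (3 : ZMod 8) + 3 = 6 from rfl,
    show (3 : ZMod 8) + 4 = 7 from rfl, show (3 : ZMod 8) + 5 = 0 from rfl,
    show (3 : ZMod 8) + 6 = 1 from rfl, show (3 : ZMod 8) + 7 = 2 from rfl,
    show -(1 : ZMod 8) = 7 from rfl, show -(2 : ZMod 8) = 6 from rfl,
    show -(3 : ZMod 8) = 5 from rfl, show -(4 : ZMod 8) = 4 from rfl,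
    show -(5 : ZMod 8) = 3 from rfl, show -(6 : ZMod 8) = 2 from rfl,
    show -(7 : ZMod 8) = 1 from rfl,
    show (1 : ZMod 8) - 2 = 7 from rfl, show (1 : ZMod 8) - 3 = 6 from rfl,
    show (1 : ZMod 8) - 4 = 5 from rfl, show (1 : ZMod 8) - 5 = 4 from rfl,
    show (1 : ZMod 8) - 6 = 3 from rfl, show (1 : ZMod 8) - 7 = 2 from rfl,
    show (2 : ZMod 8) - 1 = 1 from rfl, show (2 : ZMod 8) - 3 = 7 from rfl,
    show (2 : ZMod 8) - 4 = 6 from rfl, show (2 : ZMod 8) - 5 = 5 from rfl,
    show (2 : ZMod 8) - 6 = 4 from rfl, show (2 : ZMod 8) - 7 = 3 from rfl,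
    show (3 : ZMod 8) - 1 = 2 from rfl, show (3 : ZMod 8) - 2 = 1 from rfl,
    show (3 : ZMod 8) - 4 = 7 from rfl, show (3 : ZMod 8) - 5 = 6 from rfl,
    show (3 : ZMod 8) - 6 = 5 from rfl, show (3 : ZMod 8) - 7 = 4 from rfl,
    u0, u1, u2, u3, u4, u5, u6, u7] at hk e0 e1 e2 e3 h2
  rcases hh with rfl | rfl <;> rcases hv 0 with a0 | a0 <;> rcases hv 1 with a1 | a1 <;>
    rcases hv 2 with a2 | a2 <;> rcases hv 3 with a3 | a3 <;>
    simp only [a0, a1, a2, a3] at hk e0 e1 e2 e3 h2 <;>
    rcases hv 4 with a4 | a4 <;> simp only [a4] at hk e0 e1 e2 e3 h2 <;>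
    rcases hv 5 with a5 | a5 <;> simp only [a5] at hk e0 e1 e2 e3 h2 <;>
    rcases hv 6 with a6 | a6 <;> simp only [a6] at hk e0 e1 e2 e3 h2 <;>
    rcases hv 7 with a7 | a7 <;> simp only [a7] at hk e0 e1 e2 e3 h2 <;>
    omega

theorem rel_of_all_two (h : ∀ q : ℕ, q.Prime → q ∣ m → q = 2) {i : ZMod m} (hi : i ≠ 0) :
    2 ∣ addOrderOf i := by
  have h1 : addOrderOf i ≠ 1 := fun e => hi (AddMonoid.addOrderOf_eq_one_iff.mp e)
  obtain ⟨q, hq, hd⟩ := Nat.exists_prime_and_dvd h1
  exact h q hq (hd.trans (addOrderOf_dvd_m i)) ▸ hd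

/-- There is at most one class besides the identity. -/
theorem Data.rest_eq_zero : ∃ n : ZMod m, n ≠ 0 ∧ D.rest n = 0 := by
  classical
  by_cases hodd : ∃ q : ℕ, q.Prime ∧ q ∣ m ∧ q ≠ 2
  · obtain ⟨p, hp, hpm, hp2⟩ := hodd
    haveI := Fact.mk hp
    refine ⟨((m / p : ℕ) : ZMod m), natCast_div_ne_zero hpm, ?_⟩
    by_contra hne
    have hP : Periodic D p ((m / p : ℕ) : ZMod m) :=
      ⟨hp, natCast_div_ne_zero hpm, nsmul_natCast_div hpm,
        fun i hi hi0 => by rw [addOrderOf_eq_prime hi hi0, addOrderOf_natCast_div hpm],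
        fun i hi => D.rel_period hp2 hpm hi⟩
    refine D.false_of_periodic hP hne (r' := p) (nr := m / p) ?_ (Nat.mul_div_cancel' hpm)
      fun i => D.periodic_of_zero hP (D.fus_rest _) (by simp [Data.rest])
        (by simp [Data.rest, Data.Rel]) i
    have := hp.two_le
    omega
  · push Not at hodd
    have h2m : 2 ∣ m := by
      obtain ⟨q, hq, hd⟩ := Nat.exists_prime_and_dvd (show m ≠ 1 by have := D.two_le; omega)
      exact hodd q hq hd ▸ hd
    haveI := Fact.mk Nat.prime_two
    set n : ZMod m := ((m / 2 : ℕ) : ZMod m) with hn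
    refine ⟨n, natCast_div_ne_zero h2m, ?_⟩
    by_contra hne
    have hshift : ∀ i d : ZMod m, 2 • d = 0 → 2 • i ≠ 0 → addOrderOf (i + d) = addOrderOf i := by
      intro i d hd hi
      have e : 2 • (i + d) = 2 • i := by rw [smul_add, hd, add_zero]
      rw [addOrderOf_of_dvd_nsmul Nat.prime_two (x := i) (rel_of_all_two hodd hi),
        addOrderOf_of_dvd_nsmul Nat.prime_two (x := i + d) (by rw [e]; exact rel_of_all_two hodd hi),
        e]
    have hP : Periodic D 2 n :=
      ⟨Nat.prime_two, natCast_div_ne_zero h2m, nsmul_natCast_div h2m,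
        fun i hi hi0 => by rw [addOrderOf_eq_prime hi hi0, addOrderOf_natCast_div h2m],
        fun i hi => D.rel_order (hshift i n (nsmul_natCast_div h2m) hi).symm⟩
    obtain ⟨a, b, D2, μ, ha, hb', ha0, ham, h1, h2, h3, hD, hsq, hS⟩ := D.numbers hP hne
    set B := D.rest n with hB
    have hBf : D.Fus B := D.fus_rest n
    have hB1 : B (r 0) = 0 := by rw [r_zero, hB]; simp [Data.rest]
    have hBn : B (r n) = 0 := by rw [hB]; simp [Data.rest, Data.Rel]
    have hBper : ∀ i, B (r (i + n)) = B (r i) := fun i =>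
      D.periodic_of_zero hP hBf (by rw [← r_zero]; exact hB1) hBn i
    -- an element of order four
    have h4m : 4 ∣ m := by
      by_contra h4
      have : m = 2 := by
        obtain ⟨c, hc⟩ := h2m
        by_contra hne2
        obtain ⟨q, hq, hd⟩ := Nat.exists_prime_and_dvd (show c ≠ 1 by omega)
        rw [hodd q hq (hd.trans ⟨2, by rw [hc]; ring⟩)] at hd
        exact h4 (hc ▸ mul_dvd_mul_left 2 hd)
      subst this
      have hn1 : n = 1 := rfl
      have : a = 0 := by
        rw [ha]
        refine Finset.sum_eq_zero fun i _ => ?_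
        have : i = 0 ∨ i = 1 := zmod_two_cases i
        rcases this with rfl | rfl
        · exact hB1
        · exact hn1 ▸ hBn
      omega
    set q : ZMod m := ((m / 4 : ℕ) : ZMod m) with hq
    have hnr : 4 * (m / 4) = m := Nat.mul_div_cancel' h4m
    have hqn : 2 • q = n := by
      rw [hq, hn, nsmul_eq_mul, ← Nat.cast_mul]
      congr 1
      omega
    have hq4 : 4 • q = 0 := by
      rw [show (4 : ℕ) = 2 * 2 from rfl, mul_smul, hqn, nsmul_natCast_div h2m]
    have hq0 : q ≠ 0 := fun e => natCast_div_ne_zero h2m (by rw [← hn, ← hqn, e, smul_zero])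
    have hordq : addOrderOf q = 4 := by
      rw [addOrderOf_of_dvd_nsmul Nat.prime_two (x := q) (by
        rw [hqn]; exact rel_of_all_two hodd (natCast_div_ne_zero h2m)), hqn,
        addOrderOf_natCast_div h2m]
    have hsmall : ∀ i : ZMod m, 4 • i = 0 → i ≠ 0 → 2 • i ≠ 0 → addOrderOf i = 4 := by
      intro i hi hi0 h2i
      rw [addOrderOf_of_dvd_nsmul Nat.prime_two (x := i) (rel_of_all_two hodd h2i),
        addOrderOf_eq_prime (p := 2) (by rwa [← mul_smul]) h2i]
    have hbig : ∀ i : ZMod m, 4 • i ≠ 0 → B (r (i + q)) = B (r i) := by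
      intro i hi
      have h2i : 2 • i ≠ 0 := fun e => hi (by
        rw [show (4 : ℕ) = 2 * 2 from rfl, mul_smul, e, smul_zero])
      have h22 : 2 • (2 • i) ≠ 0 := by rwa [← mul_smul]
      refine hBf.2 _ _ ?_
      have e : addOrderOf (2 • (i + q)) = addOrderOf (2 • i) := by
        rw [smul_add, hqn]
        exact hshift _ _ (nsmul_natCast_div h2m) h22
      have hd : 2 ∣ addOrderOf (2 • i) := rel_of_all_two hodd h2i
      rw [addOrderOf_of_dvd_nsmul Nat.prime_two (x := i + q) (by rw [e]; exact hd),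
        addOrderOf_of_dvd_nsmul Nat.prime_two (x := i) hd, e]
    rcases bool_val D (d := r q) n with hq1 | hq1 <;> rw [← hB] at hq1
    · -- periodic under the subgroup of order four
      refine D.false_of_periodic hP hne (r' := 4) (nr := m / 4) (by norm_num) hnr fun i => ?_
      show B (r (i + q)) = B (r i)
      by_cases hi : 4 • i = 0
      · have hz : ∀ x : ZMod m, 4 • x = 0 → B (r x) = 0 := by
          intro x hx
          by_cases hx0 : x = 0
          · rw [hx0, hB1]
          by_cases hx2 : 2 • x = 0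
          · rw [hBf.2 x n (hP.ker x hx2 hx0), hBn]
          · rw [hBf.2 x q (by rw [hsmall x hx hx0 hx2, hordq]), hq1]
        rw [hz i hi, hz _ (by rw [smul_add, hi, hq4, add_zero])]
      · exact hbig i hi
    · -- the character trivial on the subgroup of order two
      have h20 : (2 : ZMod m) ≠ 0 := by
        intro e
        refine hq0 ?_
        have : 2 • q = 0 := by rw [nsmul_eq_mul, Nat.cast_two, e, zero_mul]
        exact absurd (hqn.symm.trans this) (natCast_div_ne_zero h2m)
      have hcn : chr n = -1 := by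
        have h' : chr n * chr n = 1 := by
          rw [← chr_add, ← two_nsmul, nsmul_natCast_div h2m, chr_zero]
        rcases mul_self_eq_one_iff.mp h' with e | e
        · exact absurd (chr_eq_one_iff.mp e) (natCast_div_ne_zero h2m)
        · exact e
      let g : DihedralGroup m → ℤ := fun d =>
        match d with
        | r i => if 4 • i = 0 then 0 else B (r i)
        | sr _ => 0
      have hgper : ∀ i, g (r (i + q)) = g (r i) := by
        intro i
        show (if 4 • (i + q) = 0 then 0 else B (r (i + q))) = if 4 • i = 0 then 0 else B (r i)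
        rw [smul_add, hq4, add_zero]
        split_ifs with h
        · rfl
        · exact hbig i h
      have htq : (2 : ZMod m) * q ≠ 0 := by
        rw [← Nat.cast_two, ← nsmul_eq_mul, hqn]; exact natCast_div_ne_zero h2m
      have hg0 := hatU_eq_zero_of_periodic htq hgper
      have hU : hatU 2 B = -2 := by
        have e : ∀ i, (B (r i) : ℂ) * chr (2 * i) = (g (r i) : ℂ) * chr (2 * i) +
            (if 4 • i = 0 then (B (r i) : ℂ) * chr (2 * i) else 0) := by
          intro i
          show _ = ((if 4 • i = 0 then 0 else B (r i) : ℤ) : ℂ) * _ + _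
          split_ifs <;> simp
        rw [hatU, Finset.sum_congr rfl fun i _ => e i, Finset.sum_add_distrib,
          show (∑ i, (g (r i) : ℂ) * chr (2 * i)) = 0 from hg0, zero_add, ← Finset.sum_filter]
        have hset : (Finset.univ.filter fun i : ZMod m => 4 • i = 0) =
            (Finset.range 4).image (fun j => j • q) := by
          symm
          refine Finset.eq_of_subset_of_card_le (fun x hx => ?_) ?_
          · obtain ⟨j, -, rfl⟩ := Finset.mem_image.mp hx
            exact Finset.mem_filter.mpr ⟨Finset.mem_univ _, by rw [smul_comm, hq4, smul_zero]⟩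
          · rw [Finset.card_image_of_injOn, Finset.card_range]
            · exact IsAddCyclic.card_nsmul_eq_zero_le (by norm_num)
            · intro x hx y hy h
              refine nsmul_injOn_Iio_addOrderOf ?_ ?_ h <;> rw [Set.mem_Iio, hordq]
              · exact Finset.mem_range.mp hx
              · exact Finset.mem_range.mp hy
        rw [hset, Finset.sum_image]
        · simp only [Finset.sum_range_succ, Finset.sum_range_zero, zero_add, zero_smul, one_smul]
          have e3 : (3 : ℕ) • q = q + n := by rw [← hqn, succ_nsmul']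
          have c1 : chr ((2 : ZMod m) * q) = -1 := by
            rw [← Nat.cast_two, ← nsmul_eq_mul, hqn, hcn]
          have c3 : chr ((2 : ZMod m) * (q + n)) = -1 := by
            rw [mul_add, chr_add, c1, ← Nat.cast_two, ← nsmul_eq_mul, nsmul_natCast_div h2m,
              chr_zero, mul_one]
          rw [mul_zero, chr_zero, hB1, hq1, c1, e3, hBper, hq1, c3, hqn, hBn]
          norm_num
        · intro x hx y hy h
          refine nsmul_injOn_Iio_addOrderOf ?_ ?_ h <;> rw [Set.mem_Iio, hordq]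
          · exact Finset.mem_range.mp hx
          · exact Finset.mem_range.mp hy
      have hD4 : D2 = 4 := by
        have := hsq 2 h20 (by rw [hU]; norm_num)
        rw [hU] at this
        norm_num at this
        exact_mod_cast this.symm
      subst hD4
      have hw : ((m : ℤ) - (a + b)) ^ 2 = ((m : ℤ) - 4) ^ 2 - 12 := by
        linear_combination h1 + h2 - 2 * (m : ℤ) * h3
      have hm8 : m = 8 := by
        have hle : m < 16 := by
          by_contra h16
          push Not at h16
          have : (16 : ℤ) ≤ m := by exact_mod_cast h16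
          rcases le_or_gt (((m : ℤ) - 4) ^ 2) (((m : ℤ) - (a + b)) ^ 2) with h | h
          · linarith
          · have h' := abs_lt_of_sq_lt_sq h (by omega)
            obtain ⟨l, u⟩ := abs_lt.mp h'
            nlinarith
        have h48 : m = 4 ∨ m = 8 ∨ m = 12 := by omega
        rcases h48 with h | h | h
        · exfalso
          rw [h] at hw
          push_cast at hw
          nlinarith
        · exact h
        · exfalso
          exact absurd (hodd 3 Nat.prime_three (by rw [h]; norm_num)) (by norm_num)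
      subst hm8
      have hn4 : n = 4 := rfl
      have hq2 : q = 2 := rfl
      have hordodd : ∀ i : ZMod 8, 4 • i ≠ 0 → B (r i) = B (r 1) := by
        intro i hi
        refine hBf.2 _ _ ?_
        have key : ∀ x : ZMod 8, 4 • x ≠ 0 → addOrderOf x = 8 := by
          intro x hx
          have h8 : addOrderOf x ∣ 8 := addOrderOf_dvd_m x
          have h4 : ¬ addOrderOf x ∣ 4 := fun hd => hx (addOrderOf_dvd_iff_nsmul_eq_zero.mp hd)
          have := Nat.le_of_dvd (by norm_num) h8
          interval_cases addOrderOf x <;> omega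
        rw [key i hi, key 1 (by decide)]
      refine eight_impossible (h := B (r 1)) (bool_val D (d := r 1) n) (fun i => B (r i)) (fun i => B (sr i)) ?_
        (fun i => bool_val D n) (conv B B (r n)) ?_ ?_ ?_
      · intro i
        have h2v : B (r (2 : ZMod 8)) = 1 := hq2 ▸ hq1
        have h6v : B (r (6 : ZMod 8)) = 1 := by
          rw [← h2v, show (6 : ZMod 8) = -2 from rfl]
          exact D.fus_r_neg hBf 2
        have h4v : B (r (4 : ZMod 8)) = 0 := hn4 ▸ hBn
        have hi : i = 0 ∨ i = 1 ∨ i = 2 ∨ i = 3 ∨ i = 4 ∨ i = 5 ∨ i = 6 ∨ i = 7 :=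
          zmod_eight_cases i
        rcases hi with rfl | rfl | rfl | rfl | rfl | rfl | rfl | rfl
        · exact hB1
        · rfl
        · exact h2v
        · exact hordodd 3 (by decide)
        · exact h4v
        · exact hordodd 5 (by decide)
        · exact h6v
        · exact hordodd 7 (by decide)
      · rw [← ha, ← hb', h3]
        obtain ⟨D2', μ', -, -, -⟩ := D.transforms hP
        have hk : conv B B 1 = a + b := by
          rw [conv_one_eq_dot (fun d => D.inv_symm D.prim D.two_le hBf.1 d), ha, hb', sum_split]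
          congr 1 <;> exact Finset.sum_congr rfl fun i _ => by
            rcases bool_val D (n := n) (d := r i) with h | h <;>
              rcases bool_val D (n := n) (d := sr i) with h' | h' <;>
              rw [← hB] at h h' <;> simp [h, h']
        have hc := congrArg (fun x : ℤ => x) (sum_conv B B)
        rw [sum_split, Finset.sum_congr rfl (g := fun _ : ZMod 8 => conv B B (r n)) (s₁ := Finset.univ)
            (f := fun i => conv B B (sr i)) (fun i _ => D.rest_quadratic hP (fun e => by
              rw [← r_zero] at e; injection e)),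
          ← Finset.add_sum_erase _ _ (Finset.mem_univ (0 : ZMod 8)), r_zero, hk,
          Finset.sum_congr rfl (g := fun _ : ZMod 8 => conv B B (r n))
            (fun i hi => D.rest_quadratic hP (r_ne_one (Finset.mem_erase.mp hi).1)),
          sum_split, ← ha, ← hb'] at hc
        simp only [Finset.sum_const, Finset.card_univ, ZMod.card, nsmul_eq_mul,
          Finset.card_erase_of_mem (Finset.mem_univ (0 : ZMod 8))] at hc
        push_cast at hc h1 h2
        nlinarith
      · intro i
        rw [← conv_sr]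
        exact D.rest_quadratic hP (fun e => by rw [← r_zero] at e; injection e)
      · rw [← D.rest_quadratic hP (r_ne_one (show (1 : ZMod 8) ≠ 0 by decide)), conv_r]

/-- **Schur–Wielandt**: all points other than the base point form one suborbit. -/
theorem Data.single_suborbit : ∃ d₀ : DihedralGroup m, d₀ ≠ 1 ∧ ∀ d, d ≠ 1 → D.Orb d₀ d := by
  classical
  obtain ⟨n, hn, h⟩ := D.rest_eq_zero
  refine ⟨r n, r_ne_one hn, fun d hd => D.orb_of_single (r_ne_one hn) (fun e he => ?_) hd⟩
  by_contra hr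
  have := congrFun h e
  simp [Data.rest, he, hr] at this

theorem isMultiplyPretransitive_two [Finite G] [Finite Ω] [FaithfulSMul G Ω]
    (hprim : IsPreprimitive G Ω) (H : Subgroup G) (k : ℕ) (e : ↥H ≃* DihedralGroup k)
    (htr : IsPretransitive ↥H Ω) (hfree : ∀ a : Ω, stabilizer ↥H a = ⊥) :
    IsMultiplyPretransitive G Ω 2 := by
  classical
  have hk : k ≠ 0 := by
    rintro rfl
    haveI : Finite (DihedralGroup 0) := Finite.of_equiv _ e.toEquiv
    exact not_finite (DihedralGroup 0)
  haveI : NeZero k := ⟨hk⟩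
  haveI := hprim.toIsPretransitive
  rcases isEmpty_or_nonempty Ω with hΩ | ⟨⟨a⟩⟩
  · exact ⟨fun x => (IsEmpty.false (x 0)).elim⟩
  have hbij : Function.Bijective fun d => (H.subtype.comp e.symm.toMonoidHom) d • a := by
    constructor
    · intro x y hxy
      have h1 : ((e.symm y)⁻¹ * e.symm x) • a = a := by
        rw [mul_smul]
        exact inv_smul_eq_iff.mpr hxy
      have h2 : (e.symm y)⁻¹ * e.symm x ∈ stabilizer ↥H a := h1
      rw [hfree a, Subgroup.mem_bot, inv_mul_eq_one] at h2
      exact e.symm.injective h2.symm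
    · intro x
      obtain ⟨h, rfl⟩ := MulAction.exists_smul_eq ↥H a x
      refine ⟨e h, ?_⟩
      show ((e.symm (e h) : ↥H) : G) • a = h • a
      rw [e.symm_apply_apply]
      rfl
  let s : Setup k G Ω := ⟨H.subtype.comp e.symm.toMonoidHom, a, hbij⟩
  rw [SubMulAction.ofStabilizer.isMultiplyPretransitive (a := a), is_one_pretransitive_iff]
  refine ⟨fun u v => ?_⟩
  have hne : ∀ w : Ω, w ≠ a → s.pt.symm w ≠ 1 := fun w hw h => hw (by
    rw [← s.pt.apply_symm_apply w, h, s.pt_one])
  suffices h : ∃ g ∈ stabilizer G a, g • (u : Ω) = v by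
    obtain ⟨g, hg, hgv⟩ := h
    exact ⟨⟨g, hg⟩, Subtype.ext hgv⟩
  by_cases hk1 : k = 1
  · subst hk1
    refine ⟨1, one_mem _, ?_⟩
    rw [one_smul]
    have hall : ∀ d : DihedralGroup 1, d ≠ 1 → d = sr 0 := by
      intro d hd
      rcases d with i | i
      · exact absurd (by rw [Subsingleton.elim i 0, r_zero]) hd
      · rw [Subsingleton.elim i 0]
    exact s.pt.symm.injective ((hall _ (hne u u.2)).trans (hall _ (hne v v.2)).symm)
  · let D : Data k G Ω := { s with prim := hprim, two_le := by omega }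
    obtain ⟨d₀, -, hd₀⟩ := D.single_suborbit
    obtain ⟨g, hg, hgu⟩ := D.orb_trans (D.orb_symm (hd₀ _ (hne u u.2))) (hd₀ _ (hne v v.2))
    refine ⟨g, hg, ?_⟩
    have h1 := congrArg D.pt hgu
    rw [D.pt_act] at h1
    exact (congrArg (g • ·) (s.pt.apply_symm_apply (u : Ω))).symm.trans
      (h1.trans (s.pt.apply_symm_apply (v : Ω)))

end Cfsg.Agent.PermGroups.DihedralB
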