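import Cfsg.Agent.PermGroups.DihedralBGroup.Power

/-!
Dihedral B-groups, part 3: an invariant function of rotation support prime to an odd prime `p`
is trivial, so functions constant on orders are periodic modulo the subgroup of order `p`.
-/

set_option autoImplicit false
set_option linter.unusedSectionVars false
set_option linter.style.haveILetI false

namespace Cfsg.Agent.PermGroups.DihedralB

open DihedralGroup MulAction

variable {m : ℕ} [NeZero m]

theorem addOrderOf_of_dvd_nsmul {p : ℕ} (hp : p.Prime) {x : ZMod m}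
    (h : p ∣ addOrderOf (p • x)) : addOrderOf x = p * addOrderOf (p • x) := by
  have h1 : p ∣ addOrderOf x := h.trans (addOrderOf_smul_dvd p)
  rw [addOrderOf_nsmul (x := x) (n := p), Nat.gcd_eq_right h1]
  exact (Nat.mul_div_cancel' h1).symm

theorem addOrderOf_of_dvd {p : ℕ} (hp : p.Prime) {x : ZMod m} (h : p ∣ addOrderOf x) :
    addOrderOf x = p * addOrderOf (p • x) := by
  rw [addOrderOf_nsmul (x := x) (n := p), Nat.gcd_eq_right h]
  exact (Nat.mul_div_cancel' h).symm

theorem not_dvd_addOrderOf_sub {p : ℕ} (hp : p.Prime) {a b : ZMod m} (ha : ¬ p ∣ addOrderOf a)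
    (hb : ¬ p ∣ addOrderOf b) : ¬ p ∣ addOrderOf (a - b) := fun h => by
  have h1 : addOrderOf (a - b) ∣ addOrderOf a * addOrderOf b := by
    refine dvd_trans ?_ (Nat.lcm_dvd_mul _ _)
    rw [sub_eq_add_neg, ← addOrderOf_neg b]
    exact (AddCommute.all _ _).addOrderOf_add_dvd_lcm
  exact ((Nat.Prime.dvd_mul hp).mp (h.trans h1)).elim ha hb

theorem eq_of_nsmul_eq {p : ℕ} (hp : p.Prime) {a b : ZMod m} (ha : ¬ p ∣ addOrderOf a)
    (hb : ¬ p ∣ addOrderOf b) (h : p • a = p • b) : a = b := by
  have h1 : addOrderOf (a - b) ∣ p :=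
    addOrderOf_dvd_of_nsmul_eq_zero (by rw [smul_sub, h, sub_self])
  rcases (Nat.dvd_prime hp).mp h1 with e | e
  · exact sub_eq_zero.mp (AddMonoid.addOrderOf_eq_one_iff.mp e)
  · exact absurd (e ▸ dvd_refl p) (not_dvd_addOrderOf_sub hp ha hb)

/-- Supported on elements of order prime to `p`. -/
def SupM (p : ℕ) {k : Type*} [CommRing k] (x : AddMonoidAlgebra k (ZMod m)) : Prop :=
  ∀ i : ZMod m, p ∣ addOrderOf i → x.coeff i = 0

theorem supM_mul {p : ℕ} (hp : p.Prime) {k : Type*} [CommRing k]
    {x y : AddMonoidAlgebra k (ZMod m)} (hx : SupM p x) (hy : SupM p y) : SupM p (x * y) := by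
  intro i hi
  rw [coeff_mul_eq]
  refine Finset.sum_eq_zero fun j _ => ?_
  by_cases hj : p ∣ addOrderOf j
  · rw [hx j hj, zero_mul]
  · by_cases hij : p ∣ addOrderOf (i - j)
    · rw [hy _ hij, mul_zero]
    · exfalso
      refine not_dvd_addOrderOf_sub hp hij (b := -j) (by rwa [addOrderOf_neg]) ?_
      rwa [sub_neg_eq_add, sub_add_cancel]

theorem supM_one {p : ℕ} (hp : p.Prime) {k : Type*} [CommRing k] :
    SupM p (1 : AddMonoidAlgebra k (ZMod m)) := by
  intro i hi
  classical
  rw [AddMonoidAlgebra.one_def, AddMonoidAlgebra.coeff_single, Finsupp.single_apply, if_neg]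
  rintro rfl
  rw [addOrderOf_zero] at hi
  exact hp.one_lt.ne' (Nat.dvd_one.mp hi)

theorem supM_pow {p : ℕ} (hp : p.Prime) {k : Type*} [CommRing k]
    {x : AddMonoidAlgebra k (ZMod m)} (hx : SupM p x) : ∀ n : ℕ, SupM p (x ^ n)
  | 0 => by rw [pow_zero]; exact supM_one hp
  | n + 1 => by rw [pow_succ]; exact supM_mul hp (supM_pow hp hx n) hx

/-- An element of the group ring over `ℤ/p^j` fixed by the `p`th power is supported on elements
of order prime to `p`. -/
theorem supM_of_pow_eq {p : ℕ} [hp : Fact p.Prime] {j : ℕ} (hj : 1 ≤ j)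
    {W : AddMonoidAlgebra (ZMod (p ^ j)) (ZMod m)} (hW : W ^ p = W) : SupM p W := by
  classical
  have hj0 : j ≠ 0 := by omega
  let c : ZMod (p ^ j) →+* ZMod p := ZMod.castHom (dvd_pow_self p hj0) (ZMod p)
  let π₁ := AddMonoidAlgebra.mapRingHom (ZMod m) c
  have hπ₁ : ∀ x i, (π₁ x).coeff i = c (x.coeff i) := fun x i =>
    AddMonoidAlgebra.coeff_mapRingHom _ _ _
  have hWb : (π₁ W) ^ p = π₁ W := by rw [← map_pow, hW]
  -- modulo `p` the support is prime to `p`
  have h1 : SupM p (π₁ W) := by
    intro i hi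
    by_contra hne
    obtain ⟨y, hy, hmax⟩ := ((Finset.univ : Finset (ZMod m)).filter
      (fun y => p ∣ addOrderOf y ∧ (π₁ W).coeff y ≠ 0)).exists_max_image (fun y => addOrderOf y)
      ⟨i, by simp [hi, hne]⟩
    simp only [Finset.mem_filter, Finset.mem_univ, true_and] at hy hmax
    apply hy.2
    rw [← hWb, coeff_pow_char]
    refine Finset.sum_eq_zero fun x hx => ?_
    by_contra hx0
    have hpx : p • x = y := (Finset.mem_filter.mp hx).2
    have hox := addOrderOf_of_dvd_nsmul hp.out (x := x) (by rw [hpx]; exact hy.1)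
    rw [hpx] at hox
    have := hmax x ⟨hox ▸ dvd_mul_right p _, hx0⟩
    have h2 := addOrderOf_pos y
    have h3 := hp.out.two_le
    nlinarith
  have hWit : ∀ t : ℕ, W ^ p ^ t = W := fun t => by
    induction t with
    | zero => rw [pow_zero, pow_one]
    | succ t ih => rw [pow_succ, pow_mul, ih, hW]
  -- lift
  let W₀ : AddMonoidAlgebra (ZMod (p ^ j)) (ZMod m) :=
    pol fun i => if p ∣ addOrderOf i then 0 else W.coeff i
  have hW₀ : SupM p W₀ := fun i hi => by simp [W₀, hi]
  have hdvd : (p : AddMonoidAlgebra (ZMod (p ^ j)) (ZMod m)) ∣ W - W₀ := by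
    refine ⟨pol fun i => (((W - W₀).coeff i).val / p : ℕ), ?_⟩
    refine AddMonoidAlgebra.coeff_injective (Finsupp.ext fun i => ?_)
    rw [← nsmul_eq_mul, AddMonoidAlgebra.coeff_smul_apply, coeff_pol, nsmul_eq_mul, ← Nat.cast_mul,
      Nat.mul_div_cancel', ZMod.natCast_zmod_val]
    rw [← ZMod.natCast_eq_zero_iff, ← ZMod.cast_eq_val]
    have hz : c ((W - W₀).coeff i) = 0 := by
      rw [← hπ₁, map_sub, AddMonoidAlgebra.coeff_sub, Finsupp.sub_apply, hπ₁ W₀]
      by_cases hi : p ∣ addOrderOf i
      · rw [hW₀ i hi, map_zero, sub_zero]; exact h1 i hi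
      · rw [hπ₁, ← map_sub]; simp [W₀, hi]
    exact hz
  obtain ⟨l, rfl⟩ : ∃ l, j = l + 1 := ⟨j - 1, by omega⟩
  have h3 := dvd_sub_pow_of_dvd_sub hdvd l
  have hWl : W ^ p ^ l = W := hWit l
  obtain ⟨Z, hZ⟩ := h3
  have h0 : ((p : AddMonoidAlgebra (ZMod (p ^ (l + 1))) (ZMod m))) ^ (l + 1) = 0 := by
    rw [← Nat.cast_pow, ← map_natCast (algebraMap (ZMod (p ^ (l + 1))) _), ZMod.natCast_self,
      map_zero]
  rw [h0, zero_mul, sub_eq_zero, hWl] at hZ
  rw [hZ]
  exact supM_pow hp.out hW₀ _

variable {G Ω : Type*} [Group G] [MulAction G Ω] (D : Data m G Ω)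

/-- Rotation part supported on orders prime to `p`. -/
def Data.Small (p : ℕ) {k : Type*} [CommRing k] (x : D.alg k) : Prop :=
  ∀ i : ZMod m, p ∣ addOrderOf i → D.coef x (r i) = 0

theorem Data.small_zero (p : ℕ) {k : Type*} [CommRing k] : D.Small p (0 : D.alg k) := fun i _ => by
  rw [D.coef_zero]; rfl

theorem Data.small_add {p : ℕ} {k : Type*} [CommRing k] {x y : D.alg k} (hx : D.Small p x)
    (hy : D.Small p y) : D.Small p (x + y) := fun i hi => by
  rw [D.coef_add, Pi.add_apply, hx i hi, hy i hi, add_zero]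

theorem Data.small_idem {p : ℕ} [hp : Fact p.Prime] (hp2 : p ≠ 2) {j : ℕ} (hj : 1 ≤ j)
    {x : D.alg (ZMod (p ^ j))} (hx : IsIdempotentElem x) : D.Small p x := by
  classical
  let A := AddMonoidAlgebra (ZMod (p ^ j)) (ZMod m)
  let u : A := x.1 0 0
  let v : A := x.1 1 0
  let v' : A := x.1 0 1
  have h11 : x.1 1 1 = u := by
    refine AddMonoidAlgebra.coeff_injective (Finsupp.ext fun i => ?_)
    show (x.1 1 1).coeff i = (x.1 0 0).coeff i
    rw [← D.J_coef x]
    simp only [J, Matrix.of_apply, Matrix.cons_val', Matrix.cons_val_zero, Matrix.cons_val_one,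
      Matrix.cons_val_fin_one, coeff_pol, Fin.isValue]
    rw [← inv_r, D.inv_symm D.prim D.two_le (D.coef_inv x)]
  have hxx : x.1 * x.1 = x.1 := congrArg Subtype.val hx.eq
  have e1 : u * u + v' * v = u := by
    have := congrFun (congrFun hxx 0) 0
    rwa [Matrix.mul_apply, Fin.sum_univ_two] at this
  have e2 : v * u + u * v = v := by
    have := congrFun (congrFun hxx 1) 0
    rwa [Matrix.mul_apply, Fin.sum_univ_two, h11] at this
  let W : A := 2 * u - 1
  have hW3 : W * W * W = W := by
    have : W * W * W - W = 4 * (W * (u * u + v' * v - u)) - 4 * v' * (v * u + u * v - v) := by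
      simp only [W]; ring
    rw [e1, e2, sub_self, sub_self, mul_zero, mul_zero, mul_zero, sub_zero] at this
    exact sub_eq_zero.mp this
  obtain ⟨q, hq⟩ := hp.out.odd_of_ne_two hp2
  have hWp : W ^ p = W := by
    rw [show W ^ p = W ^ (2 * q + 1) from congrArg (fun t => W ^ t) hq]
    clear hq
    induction q with
    | zero => rw [mul_zero, zero_add, pow_one]
    | succ q ih =>
      rw [show 2 * (q + 1) + 1 = (2 * q + 1) + 2 from by ring, pow_add, ih, sq, ← mul_assoc, hW3]
  intro i hi
  have h1 := supM_of_pow_eq hj hWp i hi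
  have h2 := supM_one hp.out (k := ZMod (p ^ j)) i hi
  have hW : W.coeff i = 2 * u.coeff i := by
    have e : W + 1 = u + u := by simp only [W]; ring
    have : W.coeff i + (1 : AddMonoidAlgebra (ZMod (p ^ j)) (ZMod m)).coeff i =
        u.coeff i + u.coeff i :=
      congrArg (fun z : AddMonoidAlgebra (ZMod (p ^ j)) (ZMod m) => z.coeff i) e
    rw [h2, add_zero] at this
    rw [this, two_mul]
  have h2u : IsUnit (2 : ZMod (p ^ j)) := by
    have := (ZMod.unitOfCoprime 2 ((Nat.Coprime.pow_right j
      ((Nat.coprime_primes Nat.prime_two hp.out).mpr (Ne.symm hp2))))).isUnit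
    simpa using this
  rw [hW] at h1
  exact (IsUnit.mul_right_eq_zero h2u).mp h1

variable {p : ℕ} [hp : Fact p.Prime]

/-- The idempotents among the functions constant on orders span those with small support. -/
theorem Data.small_mul (hp2 : p ≠ 2) {j : ℕ} (hj : 1 ≤ j) {x y : D.alg (ZMod (p ^ j))}
    (hxf : x ∈ D.fsub (p ^ j)) (hx : D.Small p x) (hyf : y ∈ D.fsub (p ^ j))
    (hy : D.Small p y) : D.Small p (x * y) := by
  classical
  let E : AddSubgroup (D.alg (ZMod (p ^ j))) :=
    AddSubgroup.closure {e | e ∈ D.fsub (p ^ j) ∧ IsIdempotentElem e}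
  have hEs : ∀ e ∈ E, D.Small p e := by
    intro e he
    induction he using AddSubgroup.closure_induction with
    | mem e he => exact D.small_idem hp2 hj he.2
    | zero => exact D.small_zero p
    | add a b _ _ ha hb => exact D.small_add ha hb
    | neg a _ ha => intro i hi; rw [D.coef_neg, Pi.neg_apply, ha i hi, neg_zero]
  have hEm : ∀ a ∈ E, ∀ b ∈ E, a * b ∈ E := by
    intro a ha b hb
    induction ha using AddSubgroup.closure_induction with
    | mem a ha =>
      induction hb using AddSubgroup.closure_induction with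
      | mem b hb => exact AddSubgroup.subset_closure ⟨mul_mem ha.1 hb.1, ha.2.mul hb.2⟩
      | zero => rw [mul_zero]; exact E.zero_mem
      | add b c _ _ h h' => rw [mul_add]; exact E.add_mem h h'
      | neg b _ h => rw [mul_neg]; exact E.neg_mem h
    | zero => rw [zero_mul]; exact E.zero_mem
    | add a c _ _ h h' => rw [add_mul]; exact E.add_mem h h'
    | neg a _ h => rw [neg_mul]; exact E.neg_mem h
  have hj0 : j ≠ 0 := by omega
  let c : ZMod (p ^ j) →+* ZMod p := ZMod.castHom (dvd_pow_self p hj0) (ZMod p)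
  have hcJ : ∀ f : DihedralGroup m → ZMod (p ^ j),
      (AddMonoidAlgebra.mapRingHom (ZMod m) c).mapMatrix (J f) = J (c ∘ f) := by
    intro f
    ext1 a b
    fin_cases a <;> fin_cases b <;>
      exact AddMonoidAlgebra.coeff_injective (Finsupp.ext fun i =>
        AddMonoidAlgebra.coeff_mapRingHom _ _ _)
  let π : D.alg (ZMod (p ^ j)) →+* D.alg (ZMod p) :=
    RingHom.restrict (AddMonoidAlgebra.mapRingHom (ZMod m) c).mapMatrix _ _ (by
      rintro _ ⟨f, hf, rfl⟩
      exact ⟨c ∘ f, fun h hh d => congrArg c (hf h hh d), (hcJ f).symm⟩)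
  have hπ : ∀ x d, D.coef (π x) d = c (D.coef x d) := by
    intro x d
    have : (π x).1 = J (c ∘ D.coef x) := by rw [← hcJ, D.J_coef]; rfl
    show coefJ (π x).1 d = _
    rw [this, coefJ_J]
    rfl
  have approx : ∀ x ∈ D.fsub (p ^ j), D.Small p x →
      ∃ ξ ∈ E, ∃ z ∈ D.fsub (p ^ j), D.Small p z ∧ x = ξ + p • z := by
    intro x hxf hx
    have hxb : π x ^ p = π x := D.pow_eq_self hp2 (π x)
      ⟨fun h hh d => by rw [hπ, hπ, hxf.1 h hh d],
        fun a b hab => by rw [hπ, hπ, hxf.2 a b hab]⟩
      (fun i hi => by rw [hπ, hx i hi, map_zero])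
    obtain ⟨l, hl⟩ : ∃ l, j = l + 1 := ⟨j - 1, by omega⟩
    let e₀ : ℕ → D.alg (ZMod (p ^ j)) := fun a => 1 - (x - (a : D.alg (ZMod (p ^ j)))) ^ (p - 1)
    have he₀f : ∀ a, e₀ a ∈ D.fsub (p ^ j) := fun a =>
      sub_mem (one_mem _) (pow_mem (sub_mem hxf (natCast_mem _ a)) _)
    have hp0 : (p : D.alg (ZMod p)) = 0 := by
      apply D.coef_injective
      rw [← nsmul_one, D.coef_nsmul, D.coef_zero]
      funext d
      simp [nsmul_eq_mul]
    haveI : Nontrivial (D.alg (ZMod p)) := by
      refine ⟨0, 1, fun h => ?_⟩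
      have := congrFun (congrArg D.coef h) (r 0)
      rw [D.coef_zero, D.coef_one, delta_r, if_pos rfl, Pi.zero_apply] at this
      exact zero_ne_one this
    haveI : CharP (D.alg (ZMod p)) p := by
      obtain ⟨q, hq⟩ := CharP.exists (D.alg (ZMod p))
      have hd : q ∣ p := (CharP.cast_eq_zero_iff (D.alg (ZMod p)) q p).mp hp0
      rcases (Nat.dvd_prime hp.out).mp hd with e | e
      · subst e
        exact absurd ((CharP.cast_eq_zero_iff (D.alg (ZMod p)) 1 1).mpr dvd_rfl)
          (show ((1 : ℕ) : D.alg (ZMod p)) ≠ 0 by rw [Nat.cast_one]; exact one_ne_zero)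
      · exact e ▸ hq
    have hπe : ∀ a, IsIdempotentElem (π (e₀ a)) := by
      intro a
      have hb : (π x - (a : D.alg (ZMod p))) ^ p = π x - (a : D.alg (ZMod p)) := by
        rw [sub_pow_char, hxb, ← map_natCast (ZMod.castHom (dvd_refl p) (D.alg (ZMod p))) a,
          ← map_pow, ZMod.pow_card]
      have h2 : ((π x - (a : D.alg (ZMod p))) ^ (p - 1)) * ((π x - (a : D.alg (ZMod p))) ^ (p - 1)) =
          (π x - (a : D.alg (ZMod p))) ^ (p - 1) := by
        have := hp.out.two_le
        rw [← pow_add, show p - 1 + (p - 1) = p + (p - 2) from by omega, pow_add, hb, ← pow_succ',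
          show p - 2 + 1 = p - 1 from by omega]
      simp only [e₀, map_sub, map_pow, map_one, map_natCast]
      exact IsIdempotentElem.one_sub h2
    let ε : ℕ → D.alg (ZMod (p ^ j)) := fun a => e₀ a ^ p ^ l
    have hker : ∀ w ∈ D.fsub (p ^ j), π w = 0 →
        ∃ z ∈ D.fsub (p ^ j), w = p • z := by
      intro w hw hw0
      have hF : D.Fus (fun d => (((D.coef w d).val / p : ℕ) : ZMod (p ^ j))) :=
        ⟨fun h hh d => by simp only [hw.1 h hh d], fun a b hab => by simp only [hw.2 a b hab]⟩
      refine ⟨D.elt _ hF.1, show D.Fus _ by rw [D.coef_elt]; exact hF, D.coef_injective ?_⟩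
      funext d
      rw [D.coef_nsmul, Pi.smul_apply, D.coef_elt, nsmul_eq_mul, ← Nat.cast_mul,
        Nat.mul_div_cancel', ZMod.natCast_zmod_val]
      rw [← ZMod.natCast_eq_zero_iff, ← ZMod.cast_eq_val]
      show c (D.coef w d) = 0
      rw [← hπ, hw0, D.coef_zero]
      rfl
    have hεi : ∀ a, IsIdempotentElem (ε a) := by
      intro a
      obtain ⟨z, -, hz⟩ := hker (e₀ a * e₀ a - e₀ a) (sub_mem (mul_mem (he₀f a) (he₀f a)) (he₀f a))
        (by rw [map_sub, map_mul, (hπe a).eq, sub_self])
      have hd : (p : D.alg (ZMod (p ^ j))) ∣ e₀ a * e₀ a - e₀ a := ⟨z, by rw [hz, nsmul_eq_mul]⟩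
      obtain ⟨w, hw⟩ := dvd_sub_pow_of_dvd_sub hd l
      have h0 : (p : D.alg (ZMod (p ^ j))) ^ (l + 1) = 0 := by
        apply D.coef_injective
        rw [← Nat.cast_pow, ← nsmul_one, D.coef_nsmul, D.coef_zero, ← hl]
        funext d
        simp [nsmul_eq_mul]
      rw [h0, zero_mul, sub_eq_zero, mul_pow] at hw
      exact hw
    set ξ := ∑ a ∈ Finset.range p, a • ε a with hξ
    have hξE : ξ ∈ E := sum_mem fun a _ =>
      E.nsmul_mem (AddSubgroup.subset_closure ⟨pow_mem (he₀f a) _, hεi a⟩) a
    have hξf : ξ ∈ D.fsub (p ^ j) := sum_mem fun a _ => nsmul_mem (pow_mem (he₀f a) _) a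
    have hπξ : π ξ = π x := by
      have h1 : ∀ a, π (ε a) = π (e₀ a) := fun a => by
        show π (e₀ a ^ p ^ l) = _
        rw [map_pow]
        exact (hπe a).pow_eq (pow_pos hp.out.pos l).ne'
      rw [map_sum]
      simp only [map_nsmul, h1, e₀, map_sub, map_one, map_pow, map_natCast]
      -- a polynomial identity over the field with `p` elements
      let φ : ZMod p →+* D.alg (ZMod p) := ZMod.castHom (dvd_refl p) _
      let P : Polynomial (ZMod p) :=
        ∑ a ∈ Finset.range p, (Polynomial.C (a : ZMod p)) *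
          (1 - (Polynomial.X - Polynomial.C (a : ZMod p)) ^ (p - 1)) - Polynomial.X
      have hP : P = 0 := by
        refine Polynomial.eq_zero_of_natDegree_lt_card_of_eval_eq_zero P
          (f := fun b : ZMod p => b) Function.injective_id (fun b => ?_) ?_
        · simp only [P, Polynomial.eval_sub, Polynomial.eval_finset_sum, Polynomial.eval_mul,
            Polynomial.eval_C, Polynomial.eval_one, Polynomial.eval_pow, Polynomial.eval_X]
          rw [Finset.sum_eq_single b.val]
          · rw [ZMod.natCast_zmod_val, sub_self, zero_pow (by have := hp.out.two_le; omega),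
              sub_zero, mul_one, sub_self]
          · intro a ha hne
            rw [ZMod.pow_card_sub_one_eq_one, sub_self, mul_zero]
            intro h
            refine hne ?_
            rw [sub_eq_zero.mp h, ZMod.val_cast_of_lt (Finset.mem_range.mp ha)]
          · intro h
            exact absurd (Finset.mem_range.mpr b.val_lt) h
        · rw [ZMod.card]
          have hp3 : 2 ≤ p - 1 := by have := hp.out.two_le; omega
          refine lt_of_le_of_lt ?_ (show p - 1 < p by omega)
          refine (Polynomial.natDegree_sub_le _ _).trans (max_le ?_ ?_)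
          · refine Polynomial.natDegree_sum_le_of_forall_le _ _ fun a _ => ?_
            refine Polynomial.natDegree_mul_le.trans ?_
            rw [Polynomial.natDegree_C, zero_add]
            refine (Polynomial.natDegree_sub_le _ _).trans (max_le (by simp) ?_)
            refine Polynomial.natDegree_pow_le.trans ?_
            rw [Polynomial.natDegree_X_sub_C, mul_one]
          · exact Polynomial.natDegree_X_le.trans (by omega)
      have h2 := congrArg (Polynomial.eval₂ φ (π x)) hP
      simp only [P, Polynomial.eval₂_sub, Polynomial.eval₂_finset_sum, Polynomial.eval₂_mul,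
        Polynomial.eval₂_C, Polynomial.eval₂_one, Polynomial.eval₂_pow, Polynomial.eval₂_X,
        Polynomial.eval₂_zero, map_natCast, sub_eq_zero] at h2
      simpa [nsmul_eq_mul] using h2
    obtain ⟨z, hzf, hz⟩ := hker (x - ξ) (sub_mem hxf hξf) (by rw [map_sub, hπξ, sub_self])
    -- remove the part meeting elements of order divisible by `p`
    let keep : DihedralGroup m → Prop := fun d => ∀ i, D.Rel d (r i) → ¬ p ∣ addOrderOf i
    let F : DihedralGroup m → ZMod (p ^ j) := fun d => if keep d then D.coef z d else 0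
    have hF : D.Fus F := D.fus_of_rel fun a b hab => if_congr
      ⟨fun h i hi => h i (D.rel_trans hab hi), fun h i hi => h i (D.rel_trans (D.rel_symm hab) hi)⟩
      (D.rel_apply hzf hab) rfl
    refine ⟨ξ, hξE, D.elt F hF.1, show D.Fus _ by rw [D.coef_elt]; exact hF, ?_, ?_⟩
    · intro i hi
      rw [D.coef_elt]
      exact if_neg fun h => h i (fun f _ => rfl) hi
    · have hsm : D.Small p (x - ξ) := fun i hi => by
        rw [sub_eq_add_neg, D.coef_add, Pi.add_apply, D.coef_neg, Pi.neg_apply, hx i hi,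
          hEs ξ hξE i hi, neg_zero, add_zero]
      have e : p • D.elt F hF.1 = x - ξ := by
        rw [hz]
        refine D.coef_injective (funext fun d => ?_)
        rw [D.coef_nsmul, D.coef_nsmul, Pi.smul_apply, Pi.smul_apply, D.coef_elt]
        show p • (if keep d then D.coef z d else 0) = _
        split_ifs with h
        · rfl
        · simp only [keep, not_forall, not_not] at h
          obtain ⟨i, hi, hpi⟩ := h
          rw [smul_zero, D.rel_apply hzf hi]
          have := hsm i hpi
          rw [hz, D.coef_nsmul, Pi.smul_apply] at this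
          exact this.symm
      rw [e, add_sub_cancel]
  have all : ∀ i : ℕ, ∀ x ∈ D.fsub (p ^ j), D.Small p x →
      ∃ ξ ∈ E, ∃ z : D.alg (ZMod (p ^ j)), x = ξ + p ^ i • z := by
    intro i
    induction i with
    | zero => exact fun x _ _ => ⟨0, E.zero_mem, x, by simp⟩
    | succ i ih =>
      intro x hxf hx
      obtain ⟨ξ, hξ, z, hzf, hzs, rfl⟩ := approx x hxf hx
      obtain ⟨ξ', hξ', z', rfl⟩ := ih z hzf hzs
      exact ⟨ξ + p • ξ', E.add_mem hξ (E.nsmul_mem hξ' p), z',
        by rw [smul_add, ← add_assoc, smul_smul, ← pow_succ']⟩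
  have hmem : ∀ x ∈ D.fsub (p ^ j), D.Small p x → x ∈ E := by
    intro x hxf hx
    obtain ⟨ξ, hξ, z, rfl⟩ := all j x hxf hx
    have : p ^ j • z = 0 := by
      refine D.coef_injective ?_
      rw [D.coef_nsmul, D.coef_zero]
      funext d
      simp [nsmul_eq_mul]
    rwa [this, add_zero]
  exact hEs _ (hEm _ (hmem x hxf hx) _ (hmem y hyf hy))

/-- Convolution preserves small support. -/
theorem Data.small_conv (hp2 : p ≠ 2) {f g : DihedralGroup m → ℤ} (hf : D.Fus f) (hg : D.Fus g)
    (hfs : ∀ i : ZMod m, p ∣ addOrderOf i → f (r i) = 0)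
    (hgs : ∀ i : ZMod m, p ∣ addOrderOf i → g (r i) = 0) (i : ZMod m) (hi : p ∣ addOrderOf i) :
    conv f g (r i) = 0 := by
  set j := (conv f g (r i)).natAbs + 1
  let φ := Int.castRingHom (ZMod (p ^ j))
  have hlift : ∀ {F : DihedralGroup m → ℤ}, D.Fus F → D.Fus (φ ∘ F) := fun hF =>
    ⟨fun h hh d => congrArg φ (hF.1 h hh d), fun a b hab => congrArg φ (hF.2 a b hab)⟩
  have h := D.small_mul hp2 (j := j) (by omega)
    (x := D.elt _ (hlift hf).1) (y := D.elt _ (hlift hg).1)
    (show D.Fus _ by rw [D.coef_elt]; exact hlift hf)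
    (fun a ha => by rw [D.coef_elt, Function.comp_apply, hfs a ha, map_zero])
    (show D.Fus _ by rw [D.coef_elt]; exact hlift hg)
    (fun a ha => by rw [D.coef_elt, Function.comp_apply, hgs a ha, map_zero]) i hi
  rw [D.coef_mul, D.coef_elt, D.coef_elt, ← map_conv] at h
  have h2 := Int.natCast_dvd.mp ((ZMod.intCast_zmod_eq_zero_iff_dvd _ _).mp h)
  by_contra hne
  have h3 := Nat.le_of_dvd (Int.natAbs_pos.mpr hne) h2
  have h4 := Nat.lt_pow_self hp.out.one_lt (n := j)
  omega

theorem natCast_div_ne_zero (hpm : p ∣ m) : ((m / p : ℕ) : ZMod m) ≠ 0 := by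
  rw [ne_eq, ZMod.natCast_eq_zero_iff]
  intro h
  have h1 : 0 < m / p := Nat.div_pos (Nat.le_of_dvd (NeZero.pos m) hpm) hp.out.pos
  have h2 := Nat.le_of_dvd h1 h
  have h3 := Nat.div_lt_self (NeZero.pos m) hp.out.one_lt
  omega

theorem nsmul_natCast_div (hpm : p ∣ m) : p • ((m / p : ℕ) : ZMod m) = 0 := by
  rw [nsmul_eq_mul, ← Nat.cast_mul, Nat.mul_div_cancel' hpm, ZMod.natCast_self]

theorem addOrderOf_natCast_div (hpm : p ∣ m) : addOrderOf ((m / p : ℕ) : ZMod m) = p :=
  addOrderOf_eq_prime (nsmul_natCast_div hpm) (natCast_div_ne_zero hpm)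

/-- A function constant on orders, with small rotation support, lives at the identity. -/
theorem Data.eq_zero_of_small (hp2 : p ≠ 2) (hpm : p ∣ m) {k : Type*} [CommRing k]
    {f : DihedralGroup m → k} (hf : D.Fus f)
    (hfs : ∀ i : ZMod m, p ∣ addOrderOf i → f (r i) = 0) {d : DihedralGroup m} (hd : d ≠ 1) :
    f d = 0 := by
  classical
  let S : Set (DihedralGroup m) := {c | ∀ i, D.Rel c (r i) → ¬ p ∣ addOrderOf i}
  have hsup : ∀ c ∈ S, ∀ i, p ∣ addOrderOf i → D.ind c (r i) = 0 := fun c hc i hi =>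
    if_neg fun h => hc i h hi
  have hS : ∀ c ∈ S, c = 1 := by
    refine (D.eq_univ_or D.prim S ?_ ?_ ?_).resolve_right fun h => ?_
    · intro i hi hp'
      have e := D.eq_one_of_rel hi
      rw [← r_zero] at e
      injection e with e'
      rw [e', addOrderOf_zero] at hp'
      exact hp.out.one_lt.ne' (Nat.dvd_one.mp hp')
    · intro h hh c hc i hi
      exact hc i (D.rel_trans (D.rel_symm (D.rel_act hh c)) hi)
    · intro c hc e he i hi hp'
      have h0 := D.small_conv hp2 (D.fus_ind c) (D.fus_ind e) (hsup c hc) (hsup e he) i hp'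
      rw [← hi _ (D.fus_conv (D.fus_ind c) (D.fus_ind e)), conv] at h0
      have hnn : ∀ x ∈ (Finset.univ : Finset (DihedralGroup m)),
          0 ≤ D.ind c x * D.ind e (x⁻¹ * (c * e)) := fun x _ => by
        unfold Data.ind; split_ifs <;> simp
      have := (Finset.sum_eq_zero_iff_of_nonneg hnn).mp h0 c (Finset.mem_univ _)
      rw [inv_mul_cancel_left] at this
      simp [Data.ind, Data.Rel] at this
    · exact h (r ((m / p : ℕ) : ZMod m)) _ (fun _ _ => rfl) (by rw [addOrderOf_natCast_div hpm])
  have : d ∉ S := fun h => hd (hS d h)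
  simp only [S, Set.mem_setOf_eq, not_forall, not_not] at this
  obtain ⟨i, hi, hpi⟩ := this
  rw [D.rel_apply hf hi, hfs i hpi]

/-- Periodicity. -/
theorem Data.rel_period (hp2 : p ≠ 2) (hpm : p ∣ m) {i : ZMod m} (hi : p • i ≠ 0) :
    D.Rel (r i) (r (i + ((m / p : ℕ) : ZMod m))) := by
  classical
  set n : ZMod m := ((m / p : ℕ) : ZMod m) with hn
  have hpn : p • n = 0 := nsmul_natCast_div hpm
  set y := p • i
  -- the fibres of multiplication by `p` have `p` elements
  let fib : ZMod m → Finset (ZMod m) := fun z => Finset.univ.filter (fun x => p • x = z)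
  have hcard : ∀ x : ZMod m, (fib (p • x)).card = p := by
    intro x
    refine le_antisymm ?_ ?_
    · have h1 : (fib (p • x)).card ≤ (fib 0).card := by
        refine Finset.card_le_card_of_injOn (fun a => a - x) ?_ (fun a _ b _ h => sub_left_inj.mp h)
        intro a ha
        simp only [fib, Finset.coe_filter, Set.mem_setOf_eq, Finset.mem_univ, true_and] at ha ⊢
        rw [smul_sub, ha, sub_self]
      exact h1.trans (IsAddCyclic.card_nsmul_eq_zero_le hp.out.pos)
    · have h1 : ((Finset.range p).image fun j => x + j • n).card = p := by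
        rw [Finset.card_image_of_injOn, Finset.card_range]
        intro a ha b hb h
        refine nsmul_injOn_Iio_addOrderOf ?_ ?_ (add_left_cancel h) <;>
          rw [Set.mem_Iio, hn, addOrderOf_natCast_div hpm]
        · exact Finset.mem_range.mp ha
        · exact Finset.mem_range.mp hb
      conv_lhs => rw [← h1]
      refine Finset.card_le_card fun a ha => ?_
      obtain ⟨j, -, rfl⟩ := Finset.mem_image.mp ha
      refine Finset.mem_filter.mpr ⟨Finset.mem_univ _, ?_⟩
      rw [smul_add, smul_comm, hpn, smul_zero, add_zero]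
  -- the `p`th power of the indicator
  let F : DihedralGroup m → ZMod p := fun d => (D.ind (r i) d : ZMod p)
  have hF : D.Fus F := ⟨fun h hh d => congrArg (Int.cast) ((D.fus_ind (r i)).1 h hh d),
    fun a b hab => congrArg (Int.cast) ((D.fus_ind (r i)).2 a b hab)⟩
  let x := D.elt F hF.1
  have hxf : x ∈ D.fsub p := show D.Fus _ by rw [D.coef_elt]; exact hF
  have hval : ∀ z, D.coef (x ^ p) (r z) = ∑ a ∈ fib z, F (r a) := fun z => by
    rw [D.coef_pow_char hp2, D.coef_elt]
  have hsame : ∀ {a b : ZMod m}, p • a = p • b → p ∣ addOrderOf a → p ∣ addOrderOf b →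
      addOrderOf a = addOrderOf b := fun {a b} h ha hb => by
    rw [addOrderOf_of_dvd hp.out ha, addOrderOf_of_dvd hp.out hb, h]
  have hsmall : ∀ z : ZMod m, p ∣ addOrderOf z → D.coef (x ^ p) (r z) = 0 := by
    intro z hz
    rw [hval]
    rcases (fib z).eq_empty_or_nonempty with e | ⟨x₀, hx₀⟩
    · rw [e, Finset.sum_empty]
    · have hx₀' : p • x₀ = z := (Finset.mem_filter.mp hx₀).2
      have : ∀ a ∈ fib z, F (r a) = F (r x₀) := by
        intro a ha
        have ha' : p • a = z := (Finset.mem_filter.mp ha).2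
        refine hF.2 _ _ ?_
        rw [addOrderOf_of_dvd_nsmul hp.out (x := a) (by rwa [ha']),
          addOrderOf_of_dvd_nsmul hp.out (x := x₀) (by rwa [hx₀']), ha', hx₀']
      rw [Finset.sum_congr rfl this, Finset.sum_const, ← hx₀', hcard, nsmul_eq_mul,
        ZMod.natCast_self, zero_mul]
  have hF' : D.Fus (D.coef (x ^ p)) := (pow_mem hxf p : x ^ p ∈ D.fsub p)
  have hy0 : D.coef (x ^ p) (r y) = 0 :=
    D.eq_zero_of_small hp2 hpm hF' hsmall fun e => hi (by rw [← r_zero] at e; injection e)
  by_cases hyp : p ∣ addOrderOf y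
  · refine D.rel_order ?_
    have e : p • (i + n) = y := by rw [smul_add, hpn, add_zero]
    rw [addOrderOf_of_dvd_nsmul hp.out (x := i) hyp,
      addOrderOf_of_dvd_nsmul hp.out (x := i + n) (by rwa [e]), e]
  · -- all the values on the fibre agree
    obtain ⟨c, hc⟩ := exists_nsmul_eq_self_of_coprime
      (n := p) (x := y) (hp.out.coprime_iff_not_dvd.mpr hyp)
    set x₀ := c • y with hx₀
    have hx₀p : p • x₀ = y := by rw [hx₀, smul_comm]; exact hc
    have hx₀M : ¬ p ∣ addOrderOf x₀ := fun h => hyp (h.trans (addOrderOf_smul_dvd c))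
    have hothers : ∀ a ∈ (fib y).erase x₀, p ∣ addOrderOf a := by
      intro a ha
      by_contra hd
      exact (Finset.mem_erase.mp ha).1 (eq_of_nsmul_eq hp.out hd hx₀M
        ((Finset.mem_filter.mp (Finset.mem_erase.mp ha).2).2.trans hx₀p.symm))
    have hx₀f : x₀ ∈ fib y := Finset.mem_filter.mpr ⟨Finset.mem_univ _, hx₀p⟩
    have hconst : ∀ a ∈ fib y, F (r a) = F (r x₀) := by
      intro a ha
      by_cases hax : a = x₀
      · rw [hax]
      have ha' : a ∈ (fib y).erase x₀ := Finset.mem_erase.mpr ⟨hax, ha⟩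
      have h1 : ∀ b ∈ (fib y).erase x₀, F (r b) = F (r a) := fun b hb =>
        hF.2 _ _ (hsame ((Finset.mem_filter.mp (Finset.mem_erase.mp hb).2).2.trans
          (Finset.mem_filter.mp ha).2.symm) (hothers b hb) (hothers a ha'))
      rw [hval, ← Finset.add_sum_erase _ _ hx₀f, Finset.sum_congr rfl h1, Finset.sum_const,
        Finset.card_erase_of_mem hx₀f, ← hx₀p, hcard, nsmul_eq_mul,
        Nat.cast_sub hp.out.one_le, ZMod.natCast_self, Nat.cast_one, zero_sub, neg_one_mul,
        ← sub_eq_add_neg, sub_eq_zero] at hy0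
      exact hy0.symm
    have hif : i ∈ fib y := Finset.mem_filter.mpr ⟨Finset.mem_univ _, rfl⟩
    have hinf : i + n ∈ fib y :=
      Finset.mem_filter.mpr ⟨Finset.mem_univ _, by rw [smul_add, hpn, add_zero]⟩
    have h := (hconst _ hinf).trans (hconst _ hif).symm
    have h1 : D.ind (r i) (r i) = 1 := if_pos fun _ _ => rfl
    simp only [F, h1, Int.cast_one] at h
    by_contra hne
    rw [show D.ind (r i) (r (i + n)) = 0 from if_neg hne, Int.cast_zero] at h
    exact zero_ne_one h

end Cfsg.Agent.PermGroups.DihedralB
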