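import Cfsg.Agent.PermGroups.DihedralBGroup.Basic

/-!
Dihedral B-groups, part 2: power maps modulo primes, and functions constant on orders of rotations.
-/

set_option autoImplicit false
set_option linter.unusedSectionVars false

namespace Cfsg.Agent.PermGroups.DihedralB

open DihedralGroup MulAction

/-- The hypotheses of the theorem. -/
structure Data (m : ℕ) (G Ω : Type*) [Group G] [MulAction G Ω] extends Setup m G Ω where
  prim : IsPreprimitive G Ω
  two_le : 2 ≤ m

variable {m : ℕ} [NeZero m] {G Ω : Type*} [Group G] [MulAction G Ω] (D : Data m G Ω)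

/-- The commutative ring of invariant functions. -/
def Data.alg (k : Type*) [CommRing k] :
    Subring (Matrix (Fin 2) (Fin 2) (AddMonoidAlgebra k (ZMod m))) where
  carrier := {M | ∃ f, D.Inv f ∧ J f = M}
  one_mem' := ⟨delta, D.inv_delta, J_delta⟩
  mul_mem' := by
    rintro _ _ ⟨f, hf, rfl⟩ ⟨g, hg, rfl⟩
    exact ⟨conv f g, D.inv_conv hf hg, J_conv f g⟩
  zero_mem' := ⟨fun _ => 0, fun _ _ _ => rfl, by
    ext1 a b; fin_cases a <;> fin_cases b <;>
      exact AddMonoidAlgebra.coeff_injective (Finsupp.ext fun _ => rfl)⟩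
  add_mem' := by
    rintro _ _ ⟨f, hf, rfl⟩ ⟨g, hg, rfl⟩
    refine ⟨fun d => f d + g d, fun h hh d => by simp only [hf h hh, hg h hh], ?_⟩
    ext1 a b; fin_cases a <;> fin_cases b <;>
      exact AddMonoidAlgebra.coeff_injective (Finsupp.ext fun _ => rfl)
  neg_mem' := by
    rintro _ ⟨f, hf, rfl⟩
    refine ⟨fun d => -f d, fun h hh d => by simp only [hf h hh], ?_⟩
    ext1 a b; fin_cases a <;> fin_cases b <;>
      exact AddMonoidAlgebra.coeff_injective (Finsupp.ext fun _ => rfl)

noncomputable instance Data.algCommRing (k : Type*) [CommRing k] : CommRing (D.alg k) :=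
  { (inferInstance : Ring (D.alg k)) with
    mul_comm := by
      rintro ⟨_, f, hf, rfl⟩ ⟨_, g, hg, rfl⟩
      apply Subtype.ext
      show J f * J g = J g * J f
      rw [← J_conv, ← J_conv, D.conv_comm D.prim D.two_le hf hg] }

variable {k : Type*} [CommRing k]

/-- The function of a ring element. -/
noncomputable def Data.coef (x : D.alg k) : DihedralGroup m → k := coefJ x.1

theorem Data.coef_inv (x : D.alg k) : D.Inv (D.coef x) := by
  obtain ⟨_, f, hf, rfl⟩ := x
  simpa [Data.coef, coefJ_J] using hf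

theorem Data.J_coef (x : D.alg k) : J (D.coef x) = x.1 := by
  obtain ⟨_, f, hf, rfl⟩ := x
  simp [Data.coef, coefJ_J]

theorem Data.coef_mul (x y : D.alg k) : D.coef (x * y) = conv (D.coef x) (D.coef y) := by
  apply J_injective
  rw [J_conv, D.J_coef, D.J_coef, D.J_coef]
  rfl

theorem Data.coef_one : D.coef (1 : D.alg k) = delta := by
  apply J_injective
  rw [D.J_coef, J_delta]
  rfl

theorem Data.coef_add (x y : D.alg k) : D.coef (x + y) = D.coef x + D.coef y := by
  funext d; cases d <;> simp [Data.coef, coefJ]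

theorem Data.coef_neg (x : D.alg k) : D.coef (-x) = -D.coef x := by
  funext d; cases d <;> simp [Data.coef, coefJ]

theorem Data.coef_zero : D.coef (0 : D.alg k) = 0 := by
  funext d; cases d <;> simp [Data.coef, coefJ]

theorem Data.coef_nsmul (n : ℕ) (x : D.alg k) : D.coef (n • x) = n • D.coef x := by
  induction n with
  | zero => rw [zero_smul, zero_smul, D.coef_zero]
  | succ n ih => rw [succ_nsmul, succ_nsmul, D.coef_add, ih]

theorem Data.coef_injective : Function.Injective (D.coef (k := k)) := fun x y h =>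
  Subtype.ext (by rw [← D.J_coef, h, D.J_coef])

/-- A ring element from an invariant function. -/
noncomputable def Data.elt (f : DihedralGroup m → k) (hf : D.Inv f) : D.alg k := ⟨J f, f, hf, rfl⟩

theorem Data.coef_elt (f : DihedralGroup m → k) (hf : D.Inv f) : D.coef (D.elt f hf) = f :=
  coefJ_J f

theorem Data.sum_coef_pow (x : D.alg k) (n : ℕ) :
    ∑ d, D.coef (x ^ n) d = (∑ d, D.coef x d) ^ n := by
  induction n with
  | zero => simp [D.coef_one, delta]
  | succ n ih => rw [pow_succ, D.coef_mul, sum_conv, ih, pow_succ]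

/-- Frobenius in the group ring of `ZMod m`. -/
theorem coeff_pow_char {p : ℕ} [hp : Fact p.Prime] (u : AddMonoidAlgebra (ZMod p) (ZMod m))
    (y : ZMod m) : (u ^ p).coeff y = ∑ i ∈ Finset.univ.filter (fun i => p • i = y), u.coeff i := by
  classical
  haveI : CharP (AddMonoidAlgebra (ZMod p) (ZMod m)) p :=
    charP_of_injective_algebraMap (algebraMap (ZMod p) (AddMonoidAlgebra (ZMod p) (ZMod m))).injective p
  have e : u = ∑ i, AddMonoidAlgebra.single i (u.coeff i) :=
    AddMonoidAlgebra.coeff_injective (Finsupp.ext fun i => by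
      simp [AddMonoidAlgebra.coeff_sum, Finsupp.finsetSum_apply, Finsupp.single_apply])
  conv_lhs => rw [e]
  rw [sum_pow_char, AddMonoidAlgebra.coeff_sum, Finsupp.finsetSum_apply, Finset.sum_filter]
  refine Finset.sum_congr rfl fun i _ => ?_
  rw [AddMonoidAlgebra.single_pow, AddMonoidAlgebra.coeff_single, Finsupp.single_apply,
    ZMod.pow_card]

/-- The rotation part of a `p`th power. -/
theorem Data.coef_pow_char {p : ℕ} [hp : Fact p.Prime] (hp2 : p ≠ 2) (x : D.alg (ZMod p))
    (y : ZMod m) : D.coef (x ^ p) (r y) =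
      ∑ i ∈ Finset.univ.filter (fun i => p • i = y), D.coef x (r i) := by
  classical
  let u := x.1 0 0
  let W : Matrix (Fin 2) (Fin 2) (AddMonoidAlgebra (ZMod p) (ZMod m)) :=
    !![0, x.1 0 1; x.1 1 0, 0]
  have h11 : x.1 1 1 = u := by
    refine AddMonoidAlgebra.coeff_injective (Finsupp.ext fun i => ?_)
    show (x.1 1 1).coeff i = (x.1 0 0).coeff i
    rw [← D.J_coef x]
    simp only [J, Matrix.of_apply, Matrix.cons_val', Matrix.cons_val_zero, Matrix.cons_val_one,
      Matrix.cons_val_fin_one, coeff_pol, Fin.isValue]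
    rw [← inv_r, D.inv_symm D.prim D.two_le (D.coef_inv x)]
  have hx : x.1 = u • 1 + W := by
    ext1 a b
    fin_cases a <;> fin_cases b <;> simp [W, u, ← h11]
  have hW2 : W * W = (x.1 0 1 * x.1 1 0) • 1 := by
    ext1 a b
    fin_cases a <;> fin_cases b <;> simp [W, Matrix.mul_apply, Fin.sum_univ_two, mul_comm]
  have hc : Commute (u • (1 : Matrix (Fin 2) (Fin 2) (AddMonoidAlgebra (ZMod p) (ZMod m)))) W :=
    (Commute.one_left W).smul_left u
  obtain ⟨R, hR⟩ := hc.exists_add_pow_prime_eq hp.out
  have hp0 : (p : Matrix (Fin 2) (Fin 2) (AddMonoidAlgebra (ZMod p) (ZMod m))) = 0 := by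
    rw [← map_natCast (algebraMap (ZMod p) (Matrix (Fin 2) (Fin 2)
      (AddMonoidAlgebra (ZMod p) (ZMod m)))), ZMod.natCast_self, map_zero]
  obtain ⟨q, hq⟩ := hp.out.odd_of_ne_two hp2
  have hWp : (W ^ p) 0 0 = 0 := by
    rw [show W ^ p = W ^ (2 * q + 1) from congrArg (fun t => W ^ t) hq, pow_succ, pow_mul, sq,
      hW2, smul_pow, one_pow, smul_mul_assoc, one_mul]
    simp [W]
  have h00 : (x.1 ^ p) 0 0 = u ^ p := by
    rw [hx, hR]
    simp [smul_pow, hWp, hp0]
  show ((x ^ p).1 0 0).coeff y = _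
  rw [SubmonoidClass.coe_pow, h00, coeff_pow_char]
  rfl

theorem exists_nsmul_of_addOrderOf_eq {i j : ZMod m} (h : addOrderOf i = addOrderOf j) :
    ∃ c : ℕ, c.Coprime (addOrderOf i) ∧ c • i = j := by
  classical
  have h0 : 0 < addOrderOf i := addOrderOf_pos i
  have h1 : (Finset.range (addOrderOf i)).image (fun c => c • i) =
      Finset.univ.filter (fun x : ZMod m => addOrderOf i • x = 0) := by
    refine Finset.eq_of_subset_of_card_le ?_ ?_
    · intro x hx
      obtain ⟨c, -, rfl⟩ := Finset.mem_image.mp hx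
      refine Finset.mem_filter.mpr ⟨Finset.mem_univ _, ?_⟩
      rw [smul_comm, addOrderOf_nsmul_eq_zero, smul_zero]
    · rw [Finset.card_image_of_injOn, Finset.card_range]
      · exact IsAddCyclic.card_nsmul_eq_zero_le h0
      · intro a ha b hb hab
        exact nsmul_injOn_Iio_addOrderOf (Finset.mem_range.mp ha) (Finset.mem_range.mp hb) hab
  have h2 : j ∈ (Finset.range (addOrderOf i)).image (fun c => c • i) := by
    rw [h1, h]
    exact Finset.mem_filter.mpr ⟨Finset.mem_univ _, addOrderOf_nsmul_eq_zero j⟩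
  obtain ⟨c, -, hc⟩ := Finset.mem_image.mp h2
  refine ⟨c, ?_, hc⟩
  have h3 := addOrderOf_nsmul (x := i) (n := c)
  rw [hc, ← h] at h3
  have h4 := Nat.gcd_dvd_left (addOrderOf i) c
  have h5 : Nat.gcd (addOrderOf i) c = 1 := by
    rcases Nat.eq_zero_or_pos (Nat.gcd (addOrderOf i) c) with e | e
    · rw [e] at h4; omega
    · by_contra hne
      exact absurd h3.symm (Nat.div_lt_self h0 (by omega)).ne
  rwa [Nat.Coprime, Nat.gcd_comm]

/-- Invariance, and dependence of the rotation values on the orders only. -/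
def Data.Fus {k : Type*} (f : DihedralGroup m → k) : Prop :=
  D.Inv f ∧ ∀ i j : ZMod m, addOrderOf i = addOrderOf j → f (r i) = f (r j)

theorem addOrderOf_nsmul_prime {p : ℕ} (hp : p.Prime) {i : ZMod m}
    (h : ¬ p ∣ addOrderOf i) : addOrderOf (p • i) = addOrderOf i :=
  Nat.Coprime.addOrderOf_nsmul ((hp.coprime_iff_not_dvd.mpr h).symm)

/-- For a prime not dividing `m`, powers fix functions depending on orders only. -/
theorem Data.pow_eq_self {p : ℕ} [hp : Fact p.Prime] (hp2 : p ≠ 2) (x : D.alg (ZMod p))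
    (hx : D.Fus (D.coef x)) (hsup : ∀ i : ZMod m, p ∣ addOrderOf i → D.coef x (r i) = 0) :
    x ^ p = x := by
  classical
  refine D.coef_injective (D.eq_of_r D.prim D.two_le (D.coef_inv _) (D.coef_inv _) fun y => ?_)
  rw [D.coef_pow_char hp2]
  by_cases hy : p ∣ addOrderOf y
  · rw [hsup y hy]
    refine Finset.sum_eq_zero fun i hi => hsup i ?_
    refine hy.trans ?_
    rw [← (Finset.mem_filter.mp hi).2]
    exact addOrderOf_smul_dvd p
  · obtain ⟨c, hc⟩ := exists_nsmul_eq_self_of_coprime
      (n := p) (x := y) ((hp.out.coprime_iff_not_dvd.mpr hy))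
    have hcy : ¬ p ∣ addOrderOf (c • y) := fun hd => hy (hd.trans (addOrderOf_smul_dvd c))
    have hpc : p • c • y = y := by rw [smul_comm]; exact hc
    rw [Finset.sum_eq_single (c • y)]
    · refine hx.2 _ _ ?_
      conv_rhs => rw [← hpc]
      exact (addOrderOf_nsmul_prime hp.out hcy).symm
    · intro b hb hne
      refine hsup b ?_
      by_contra hd
      refine hne ?_
      have e : p • (b - c • y) = 0 := by
        rw [smul_sub, (Finset.mem_filter.mp hb).2, hpc, sub_self]
      have h1 : addOrderOf (b - c • y) ∣ Nat.lcm (addOrderOf b) (addOrderOf (c • y)) := by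
        rw [sub_eq_add_neg, ← addOrderOf_neg (c • y)]
        exact (AddCommute.all _ _).addOrderOf_add_dvd_lcm
      have h2 : addOrderOf (b - c • y) ∣ p := addOrderOf_dvd_of_nsmul_eq_zero e
      have h3 : (Nat.lcm (addOrderOf b) (addOrderOf (c • y))).Coprime p :=
        Nat.Coprime.coprime_dvd_left (Nat.lcm_dvd_mul _ _)
          (Nat.Coprime.mul_left (hp.out.coprime_iff_not_dvd.mpr hd).symm
            (hp.out.coprime_iff_not_dvd.mpr hcy).symm)
      exact sub_eq_zero.mp (AddMonoid.addOrderOf_eq_one_iff.mp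
        (Nat.eq_one_of_dvd_coprimes h3 h1 h2))
    · intro h
      exact absurd (by simpa only [Finset.mem_filter, Finset.mem_univ, true_and] using hpc) h

theorem addOrderOf_dvd_m (i : ZMod m) : addOrderOf i ∣ m :=
  addOrderOf_dvd_of_nsmul_eq_zero (by simp)

/-- Functions depending on orders only are closed under convolution. -/
theorem Data.fus_conv {f g : DihedralGroup m → ℤ} (hf : D.Fus f) (hg : D.Fus g) :
    D.Fus (conv f g) := by
  refine ⟨D.inv_conv hf.1 hg.1, fun i j hij => ?_⟩
  obtain ⟨c, hc, rfl⟩ := exists_nsmul_of_addOrderOf_eq hij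
  obtain ⟨P, hP, hPp, hPc⟩ := Nat.forall_exists_prime_gt_and_modEq
    ((conv f g (r (c • i)) - conv f g (r i)).natAbs + m + 2) (addOrderOf_pos i).ne' hc
  haveI := Fact.mk hPp
  have hPm : ∀ y : ZMod m, ¬ P ∣ addOrderOf y := fun y hd => by
    have := Nat.le_of_dvd (NeZero.pos m) (hd.trans (addOrderOf_dvd_m y)); omega
  have hPi : P • i = c • i := nsmul_eq_nsmul_iff_modEq.mpr hPc
  let φ := Int.castRingHom (ZMod P)
  have key : ∀ {F : DihedralGroup m → ℤ} (hF : D.Fus F),
      D.elt (φ ∘ F) (fun h hh d => congrArg φ (hF.1 h hh d)) ^ P =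
        D.elt (φ ∘ F) (fun h hh d => congrArg φ (hF.1 h hh d)) := fun {F} hF =>
    D.pow_eq_self (by omega) _
      (by show D.Fus (coefJ (J _)); rw [coefJ_J]; exact ⟨fun h hh d => congrArg φ (hF.1 h hh d),
        fun a b hab => congrArg φ (hF.2 a b hab)⟩)
      (fun y hd => absurd hd (hPm y))
  set x := D.elt (φ ∘ f) (fun h hh d => congrArg φ (hf.1 h hh d))
  set z := D.elt (φ ∘ g) (fun h hh d => congrArg φ (hg.1 h hh d))
  have hxz : (x * z) ^ P = x * z := by rw [mul_pow, key hf, key hg]
  have h2 := D.coef_pow_char (by omega) (x * z) (c • i)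
  have hcast : ∀ d, D.coef (x * z) d = φ (conv f g d) := fun d => by
    show _ = φ _
    rw [D.coef_mul, map_conv]
    exact congrArg₂ (fun a b => conv a b d) (coefJ_J _) (coefJ_J _)
  rw [hxz, Finset.sum_eq_single i, hcast, hcast] at h2
  · rw [← sub_eq_zero, ← map_sub] at h2
    have h3 : (P : ℤ) ∣ conv f g (r (c • i)) - conv f g (r i) :=
      (ZMod.intCast_zmod_eq_zero_iff_dvd _ _).mp h2
    by_contra hne
    have h4 := Nat.le_of_dvd (Int.natAbs_pos.mpr (sub_ne_zero.mpr (Ne.symm hne)))
      (Int.natCast_dvd.mp h3)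
    omega
  · intro b hb hne
    refine absurd ?_ hne
    have hb' := (Finset.mem_filter.mp hb).2
    rw [← hPi] at hb'
    have e : P • (b - i) = 0 := by rw [smul_sub, hb', sub_self]
    have h1 : addOrderOf (b - i) ∣ P := addOrderOf_dvd_of_nsmul_eq_zero e
    rcases (Nat.dvd_prime hPp).mp h1 with h | h
    · exact sub_eq_zero.mp (AddMonoid.addOrderOf_eq_one_iff.mp h)
    · exact absurd (h ▸ dvd_refl P) (hPm (b - i))
  · intro h
    exact absurd (by simpa only [Finset.mem_filter, Finset.mem_univ, true_and] using hPi) h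

theorem Data.fus_delta {k : Type*} [CommRing k] : D.Fus (delta (m := m) (k := k)) := by
  refine ⟨D.inv_delta, fun i j h => ?_⟩
  rw [delta_r, delta_r]
  refine if_congr ?_ rfl rfl
  constructor <;> rintro rfl
  · exact AddMonoid.addOrderOf_eq_one_iff.mp (by rw [← h, addOrderOf_zero])
  · exact AddMonoid.addOrderOf_eq_one_iff.mp (by rw [h, addOrderOf_zero])

/-- The equivalence given by all functions constant on orders. -/
def Data.Rel (d e : DihedralGroup m) : Prop := ∀ f : DihedralGroup m → ℤ, D.Fus f → f d = f e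

theorem Data.rel_symm {d e : DihedralGroup m} (h : D.Rel d e) : D.Rel e d :=
  fun f hf => (h f hf).symm

theorem Data.rel_trans {d e c : DihedralGroup m} (h : D.Rel d e) (h' : D.Rel e c) : D.Rel d c :=
  fun f hf => (h f hf).trans (h' f hf)

theorem Data.rel_act {h : G} (hh : h ∈ stabilizer G D.a) (d : DihedralGroup m) :
    D.Rel (D.act h d) d := fun _ hf => hf.1 h hh d

theorem Data.rel_order {i j : ZMod m} (h : addOrderOf i = addOrderOf j) : D.Rel (r i) (r j) :=
  fun _ hf => hf.2 i j h

theorem Data.eq_one_of_rel {d : DihedralGroup m} (h : D.Rel 1 d) : d = 1 := by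
  by_contra hne
  have := h delta D.fus_delta
  simp [delta, hne] at this

theorem Data.fus_of_rel {k : Type*} {f : DihedralGroup m → k}
    (h : ∀ d e, D.Rel d e → f d = f e) : D.Fus f :=
  ⟨fun g hg d => h _ _ (D.rel_act hg d), fun _ _ hij => h _ _ (D.rel_order hij)⟩

theorem Data.rel_apply {k : Type*} {f : DihedralGroup m → k} (hf : D.Fus f)
    {d e : DihedralGroup m} (h : D.Rel d e) : f d = f e := by
  classical
  have := h (fun x => if f x = f e then 1 else 0) ⟨fun g hg x => by simp only [hf.1 g hg x],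
    fun i j hij => by simp only [hf.2 i j hij]⟩
  by_contra hne
  simp [hne] at this

open scoped Classical in
/-- The indicator of a class. -/
noncomputable def Data.ind (d : DihedralGroup m) : DihedralGroup m → ℤ :=
  fun e => if D.Rel d e then 1 else 0

theorem Data.fus_ind (d : DihedralGroup m) : D.Fus (D.ind d) := by
  classical
  exact D.fus_of_rel fun a b hab => if_congr
    ⟨fun h => D.rel_trans h hab, fun h => D.rel_trans h (D.rel_symm hab)⟩ rfl rfl

theorem Data.fus_conv_zmod {N : ℕ} {f g : DihedralGroup m → ZMod N} (hf : D.Fus f)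
    (hg : D.Fus g) : D.Fus (conv f g) := by
  let φ := Int.castRingHom (ZMod N)
  have hsurj : Function.Surjective φ := ZMod.intCast_surjective
  have e : ∀ F : DihedralGroup m → ZMod N, φ ∘ (Function.surjInv hsurj ∘ F) = F := fun F =>
    funext fun d => Function.surjInv_eq hsurj (F d)
  have hl : ∀ {F : DihedralGroup m → ZMod N}, D.Fus F → D.Fus (Function.surjInv hsurj ∘ F) :=
    fun hF => ⟨fun h hh d => congrArg (Function.surjInv hsurj) (hF.1 h hh d),
      fun i j hij => congrArg (Function.surjInv hsurj) (hF.2 i j hij)⟩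
  have h := D.fus_conv (hl hf) (hl hg)
  refine D.fus_of_rel fun a b hab => ?_
  rw [← e f, ← e g, ← map_conv, ← map_conv, h' h hab]
where
  h' {F : DihedralGroup m → ℤ} (hF : D.Fus F) {a b : DihedralGroup m} (hab : D.Rel a b) :
      F a = F b := hab F hF

/-- The subring of functions constant on orders. -/
def Data.fsub (N : ℕ) : Subring (D.alg (ZMod N)) where
  carrier := {x | D.Fus (D.coef x)}
  one_mem' := by show D.Fus _; rw [D.coef_one]; exact D.fus_delta
  mul_mem' := by
    intro x y hx hy
    show D.Fus _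
    rw [D.coef_mul]
    exact D.fus_conv_zmod hx hy
  zero_mem' := by
    show D.Fus _
    rw [D.coef_zero]
    exact ⟨fun _ _ _ => rfl, fun _ _ _ => rfl⟩
  add_mem' := by
    intro x y hx hy
    show D.Fus _
    rw [D.coef_add]
    exact ⟨fun h hh d => by simp only [Pi.add_apply, hx.1 h hh, hy.1 h hh],
      fun i j hij => by simp only [Pi.add_apply, hx.2 i j hij, hy.2 i j hij]⟩
  neg_mem' := by
    intro x hx
    show D.Fus _
    rw [D.coef_neg]
    exact ⟨fun h hh d => by simp only [Pi.neg_apply, hx.1 h hh],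
      fun i j hij => by simp only [Pi.neg_apply, hx.2 i j hij]⟩

end Cfsg.Agent.PermGroups.DihedralB
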